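import Cfsg.Agent.Suzuki.Chars.Degrees

/-!
Which degrees occur.
-/

set_option autoImplicit false

open Cfsg
open scoped ComplexConjugate

namespace CfsgLib.SuzukiDeg

open CfsgLib.Suzuki CfsgLib.Chars

variable {F : Type*} [Field F] [Fintype F] [CharP F 2] {m : ℕ}

/-- The arithmetic of the two non-split tori. -/
theorem tori_arith (hm : 1 ≤ m) {s a b q : ℕ} (hs : s = 2 ^ m) (ha : a = 2 * s ^ 2 + 2 * s + 1)
    (hb : b = 2 * s ^ 2 + 1 - 2 * s) (hq : q = 2 * s ^ 2) :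
    (s = 2 ∨ 4 ≤ s) ∧ (b : ℤ) = 2 * (s : ℤ) ^ 2 - 2 * s + 1 ∧ a * b = q ^ 2 + 1 ∧
      Nat.Coprime a b ∧ Nat.Coprime (q ^ 2) a ∧ Nat.Coprime (q ^ 2) b ∧
      IsCoprime (2 * (s : ℤ) ^ 2 - 1) (2 * (s : ℤ) ^ 2 + 2 * s + 1) ∧
      IsCoprime (2 * (s : ℤ) ^ 2 - 1) (2 * (s : ℤ) ^ 2 - 2 * s + 1) := by
  have hs' : s = 2 ∨ 4 ≤ s := by
    rcases eq_or_lt_of_le hm with h | h
    · exact Or.inl (by rw [hs, ← h, pow_one])
    · exact Or.inr (hs ▸ (show (2 : ℕ) ^ 2 ≤ 2 ^ m from Nat.pow_le_pow_right (by norm_num) h))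
  have hle : 2 * s ≤ 2 * s ^ 2 := Nat.mul_le_mul_left 2 (Nat.le_self_pow two_ne_zero _)
  have hbZ : (b : ℤ) = 2 * (s : ℤ) ^ 2 - 2 * s + 1 := by
    rw [hb, Nat.cast_sub (by omega)]; push_cast; ring
  obtain ⟨-, -, -, c4, c5, c6⟩ := torus_orders_coprime m
  have e1 : 2 ^ (2 * m + 1) = q := by rw [hq, hs]; ring
  have e2 : 2 ^ (m + 1) = 2 * s := by rw [hs]; ring
  rw [e1, e2] at c4 c5 c6
  have ea : q + 2 * s + 1 = a := by omega
  have eb : q - 2 * s + 1 = b := by omega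
  rw [ea] at c4 c6
  rw [eb] at c5 c6
  have hprod : a * b = q ^ 2 + 1 := by
    have : ((a * b : ℕ) : ℤ) = ((q ^ 2 + 1 : ℕ) : ℤ) := by
      push_cast; rw [hbZ, ha, hq]; push_cast; ring
    exact_mod_cast this
  have hq2 : ∀ x, x ∣ q ^ 2 + 1 → Nat.Coprime (q ^ 2) x := fun x hx =>
    (Nat.coprime_self_add_right.2 (Nat.coprime_one_right _)).coprime_dvd_right hx
  have h1 : 1 ≤ 2 * s ^ 2 := by
    have : 0 < s := by omega
    have := Nat.pow_pos (n := 2) this
    omega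
  have c4' := Int.isCoprime_iff_gcd_eq_one.2 (show Int.gcd ((q - 1 : ℕ) : ℤ) (a : ℤ) = 1 from c4)
  have c5' := Int.isCoprime_iff_gcd_eq_one.2 (show Int.gcd ((q - 1 : ℕ) : ℤ) (b : ℤ) = 1 from c5)
  rw [hq, Nat.cast_sub h1] at c4' c5'
  rw [ha] at c4'
  rw [hbZ] at c5'
  push_cast at c4' c5'
  exact ⟨hs', hbZ, hprod, c6, hq2 a ⟨b, hprod.symm⟩, hq2 b ⟨a, by rw [mul_comm b a]; exact hprod.symm⟩,
    c4', c5'⟩

theorem kindly_dvd {s : ℤ} {d : ℤ} {i : Fin 7} (h : Kindly s d i) :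
    d ^ 2 = ![1, ((2 * s ^ 2) ^ 2) ^ 2, ((2 * s ^ 2) ^ 2 + 1) ^ 2,
      ((2 * s ^ 2 - 1) * (2 * s ^ 2 + 2 * s + 1)) ^ 2,
      ((2 * s ^ 2 - 1) * (2 * s ^ 2 - 2 * s + 1)) ^ 2, 11025, ((2 * s ^ 2 - 1) * s) ^ 2] i := by
  fin_cases i <;> simp only [Kindly, Fin.zero_eta, Fin.mk_one, Fin.reduceFinMk, Matrix.cons_val] at h ⊢
  · rw [h]; norm_num
  · rw [h]
  · rw [h]
  · rw [h]
  · rw [h]
  · rw [h.2]; norm_num
  · rw [h]

open scoped Classical in
/-- The irreducible degrees: classification, and the occurrence of all kinds. -/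
theorem degrees_spec (hm : 1 ≤ m) (hF : Fintype.card F = 2 ^ (2 * m + 1)) :
    (∀ χ : IrrCharacter (grp (theta F m)), ∃ i : Fin 7,
        Kindly (2 ^ m) (charDegree (χ : grp (theta F m) → ℂ)) i) ∧
      ∀ i : Fin 7, i ≠ 4 → i ≠ 5 → (∃ χ : IrrCharacter (grp (theta F m)),
        Kindly (2 ^ m) (charDegree (χ : grp (theta F m) → ℂ)) i) ∧
      (∃ χ : IrrCharacter (grp (theta F m)),
        Kindly (2 ^ m) (charDegree (χ : grp (theta F m) → ℂ)) 4 ∨
        Kindly (2 ^ m) (charDegree (χ : grp (theta F m) → ℂ)) 5) := by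
  haveI : Fintype (grp (theta F m)) := Fintype.ofFinite _
  set hT := titsEndo_theta hm hF
  haveI : Fintype (uGrp hT) := Fintype.ofFinite _
  haveI : Fintype (stabInf (theta F m)) := Fintype.ofFinite _
  haveI : Fintype (Fˣ →* ℂˣ) := Fintype.ofFinite _
  obtain ⟨P, M, hP, hM⟩ := tori_data (F := F) hm hF
  set s : ℕ := 2 ^ m with hsm
  obtain ⟨hs, hbZ, hprod, hcop, hqa, hqb, hca, hcb⟩ :=
    tori_arith hm hsm (a := 2 * s ^ 2 + 2 * s + 1) (b := 2 * s ^ 2 + 1 - 2 * s) (q := 2 * s ^ 2) rfl rfl rfl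
  set am : ℕ := 2 * s ^ 2 + 1 - 2 * s with ham
  set ap : ℕ := 2 * s ^ 2 + 2 * s + 1 with hap
  have hqs : Fintype.card F = 2 * s ^ 2 := by rw [hF, hsm]; ring
  have hqsN : Nat.card F = 2 * s ^ 2 := by rw [Nat.card_eq_fintype_card, hqs]
  have hs2 : (2 : ℤ) ≤ (s : ℤ) := by omega
  rw [show ((2 : ℤ) ^ m) = (s : ℤ) by rw [hsm]; push_cast; rfl]
  obtain ⟨st, hst, hstd⟩ := exists_steinberg hT
  rw [hqsN] at hstd
  push_cast at hstd
  -- classification
  have hclass : ∀ χ : IrrCharacter (grp (theta F m)), ∃ i : Fin 7,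
      Kindly (s : ℤ) (charDegree (χ : grp (theta F m) → ℂ)) i ∧
      (i = 0 → χ = oneChar _) ∧ (i = 1 → χ = st) ∧
      (i = 2 → ∃ l : Fˣ →* ℂˣ, l ≠ 1 ∧ (χ : grp (theta F m) → ℂ) = principal hT l) := by
    intro χ
    by_cases hc : ∀ l : Fˣ →* ℂˣ, classInner (χ : grp (theta F m) → ℂ) (principal hT l) = 0
    · obtain ⟨htor, hU⟩ := cuspidal_facts hT χ hc
      haveI : Fintype (tGrp hT) := Fintype.ofFinite _
      obtain ⟨k, hk⟩ : ∃ k : ℕ, charDegree (χ : grp (theta F m) → ℂ) = (2 * s ^ 2 - 1) * k := by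
        obtain ⟨n, hn⟩ := exists_nat_classInner
          (isCharacter_restrict (isCharacter_coe χ) (tGrp hT)) (oneChar (tGrp hT))
        refine ⟨n, ?_⟩
        have hsum : ∑ x : tGrp hT, (χ : grp (theta F m) → ℂ) x = (charDegree (χ : grp (theta F m) → ℂ) : ℂ) := by
          rw [← Finset.sum_erase_add _ _ (Finset.mem_univ (1 : tGrp hT)), Subgroup.coe_one, coe_charDegree,
            Finset.sum_eq_zero, zero_add]
          intro x hx
          obtain ⟨t, ht⟩ := x.2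
          rw [← ht]
          exact htor t fun e => (Finset.mem_erase.1 hx).1 (Subtype.ext (by rw [← ht, e, map_one, Subgroup.coe_one]))
        simp only [classInner, oneChar_apply, map_one, mul_one, hsum] at hn
        rw [inv_mul_eq_iff_eq_mul₀ (Nat.cast_ne_zero.2 Nat.card_pos.ne'), card_tGrp, hqsN] at hn
        exact_mod_cast hn
      have hdpos := charDegree_pos χ
      have hd2 : 2 ≤ charDegree (χ : grp (theta F m) → ℂ) := by
        have : 7 ≤ 2 * s ^ 2 - 1 := by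
          have : 2 ^ 2 ≤ s ^ 2 := Nat.pow_le_pow_left (by omega) 2
          omega
        have hk0 : 0 < k := Nat.pos_of_ne_zero fun e => by rw [e, mul_zero] at hk; omega
        calc 2 ≤ (2 * s ^ 2 - 1) * 1 := by omega
          _ ≤ _ := hk ▸ Nat.mul_le_mul_left _ hk0
      have hks : s ≤ k := by
        obtain ⟨n, ρ, hρ, hρχ⟩ := χ.2
        have hn : charDegree (χ : grp (theta F m) → ℂ) = Module.finrank ℂ (Fin n → ℂ) :=
          charDegree_eq_of_map_one (by rw [← hρχ, Representation.char_one])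
        have h := min_degree hT (n := m) (by rw [Nat.card_eq_fintype_card, hF]) ρ hρ (hn ▸ hd2)
        rw [← hn, hk, ← hsm, show (2 : ℕ) ^ (2 * m + 1) = 2 * s ^ 2 by rw [hsm]; ring, mul_comm s] at h
        exact Nat.le_of_mul_le_mul_left h (by
          have : 1 ≤ s ^ 2 := Nat.one_le_pow _ _ (by omega)
          omega)
      have hdvd : k ∣ (2 * s ^ 2) ^ 2 * ((2 * s ^ 2) ^ 2 + 1) := by
        have h := charDegree_dvd_card χ
        rw [hk, card_grp hT, hqsN, mul_comm _ (2 * s ^ 2 - 1)] at h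
        exact Nat.dvd_of_mul_dvd_mul_left (by
          have : 1 ≤ s ^ 2 := Nat.one_le_pow _ _ (by omega)
          omega) h
      obtain ⟨Yp, hYp, hYp0, hPp⟩ := exists_Y hP χ
      obtain ⟨Ym, hYm, hYm0, hPm⟩ := exists_Y hM χ
      have hkZ : (charDegree (χ : grp (theta F m) → ℂ) : ℤ) = ((Fintype.card F : ℤ) - 1) * (k : ℤ) := by
        rw [hk, hqs, Nat.cast_mul, Nat.cast_sub (by
          have : 1 ≤ s ^ 2 := Nat.one_le_pow _ _ (by omega)
          omega)]
        push_cast; rfl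
      have hb := budget hm hF hP hM (hqs ▸ hprod) hcop (hqs ▸ hqa) (hqs ▸ hqb) χ
        (by convert hU) hkZ hYp hYm
      rw [hqs, hbZ, hap] at hb
      rw [hqs] at hkZ
      rw [hbZ] at hPm
      rw [hap] at hPp
      push_cast at hb hkZ hPp
      obtain ⟨i, hi, hi'⟩ := cuspidal_kind hs hsm hkZ (by exact_mod_cast hks) hdvd hPp hPm hYp0 hYm0 hb hca hcb
      refine ⟨i, hi, ?_, ?_, ?_⟩ <;> rintro rfl <;> simp at hi'
    · push Not at hc
      obtain ⟨l, hl⟩ := hc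
      rcases noncuspidal_cases hT hst χ hl with (rfl | rfl) | ⟨hl1, hχ⟩
      · exact ⟨0, by show (_ : ℤ) = 1; rw [charDegree_eq_of_map_one (n := 1) (by simp)]; norm_num,
          fun _ => rfl, fun e => absurd e (by decide), fun e => absurd e (by decide)⟩
      · exact ⟨1, hstd, fun e => absurd e (by decide), fun _ => rfl, fun e => absurd e (by decide)⟩
      · refine ⟨2, ?_, fun e => absurd e (by decide), fun e => absurd e (by decide), fun _ => ⟨l, hl1, hχ⟩⟩
        show (_ : ℤ) = _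
        rw [charDegree_eq_of_map_one (n := Nat.card F ^ 2 + 1) (by rw [hχ, principal_one]; push_cast; rfl),
          hqsN]
        push_cast; rfl
  refine ⟨fun χ => (hclass χ).imp fun i h => h.1, ?_⟩
  choose cls hk h0 h1 h2 using hclass
  -- the fibres
  let n : Fin 7 → ℤ := fun i => ((Finset.univ.filter fun χ : IrrCharacter (grp (theta F m)) => cls χ = i).card : ℤ)
  have hex : ∀ i, 0 < n i → ∃ χ : IrrCharacter (grp (theta F m)), Kindly (s : ℤ) (charDegree (χ : grp (theta F m) → ℂ)) i := by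
    intro i hi
    have hi' : 0 < (Finset.univ.filter fun χ : IrrCharacter (grp (theta F m)) => cls χ = i).card :=
      Int.natCast_pos.1 hi
    obtain ⟨χ, hχ⟩ := Finset.card_pos.1 hi'
    exact ⟨χ, (Finset.mem_filter.1 hχ).2 ▸ hk χ⟩
  have hsum : ∀ v : Fin 7 → ℤ, ∑ χ : IrrCharacter (grp (theta F m)), v (cls χ) =
      n 0 * v 0 + n 1 * v 1 + n 2 * v 2 + n 3 * v 3 + n 4 * v 4 + n 5 * v 5 + n 6 * v 6 := by
    intro v
    rw [← Finset.sum_fiberwise Finset.univ cls (fun χ => v (cls χ)), Fin.sum_univ_seven]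
    have : ∀ i, ∑ χ ∈ Finset.univ.filter (fun χ => cls χ = i), v (cls χ) = n i * v i := fun i => by
      rw [Finset.sum_congr rfl (g := fun _ => v i) fun χ hχ => by rw [(Finset.mem_filter.1 hχ).2],
        Finset.sum_const, nsmul_eq_mul]
    simp only [this]
  have hn0 : n 0 = 1 := by
    have : (Finset.univ.filter fun χ : IrrCharacter (grp (theta F m)) => cls χ = 0) = {oneChar _} := by
      refine Finset.eq_singleton_iff_unique_mem.2 ⟨Finset.mem_filter.2 ⟨Finset.mem_univ _, ?_⟩,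
        fun χ hχ => h0 χ (Finset.mem_filter.1 hχ).2⟩
      have h := hk (oneChar (grp (theta F m)))
      rw [charDegree_eq_of_map_one (n := 1) (by simp)] at h
      generalize hg : cls (oneChar (grp (theta F m))) = i at h ⊢
      fin_cases i <;> simp [Kindly] at h ⊢ <;> nlinarith
    simp only [n, this, Finset.card_singleton, Nat.cast_one]
  have hn1 : n 1 = 1 := by
    have : (Finset.univ.filter fun χ : IrrCharacter (grp (theta F m)) => cls χ = 1) = {st} := by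
      refine Finset.eq_singleton_iff_unique_mem.2 ⟨Finset.mem_filter.2 ⟨Finset.mem_univ _, ?_⟩,
        fun χ hχ => h1 χ (Finset.mem_filter.1 hχ).2⟩
      have h := hk st
      rw [hstd] at h
      generalize hg : cls st = i at h ⊢
      fin_cases i <;> simp [Kindly] at h ⊢
      · have h8 : (8 : ℤ) ≤ 2 * (s : ℤ) ^ 2 := by nlinarith
        omega
      · obtain ⟨x, hx⟩ : (2 * (s : ℤ) ^ 2 - 1) ∣ (1 : ℤ) := ⟨(2 * (s : ℤ) ^ 2 + 2 * s + 1) - (2 * (s : ℤ) ^ 2 + 1), by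
          linear_combination h⟩
        have := Int.eq_one_or_neg_one_of_mul_eq_one hx.symm
        rcases this with h' | h' <;> nlinarith
      · obtain ⟨x, hx⟩ : (2 * (s : ℤ) ^ 2 - 1) ∣ (1 : ℤ) := ⟨(2 * (s : ℤ) ^ 2 - 2 * s + 1) - (2 * (s : ℤ) ^ 2 + 1), by
          linear_combination h⟩
        have := Int.eq_one_or_neg_one_of_mul_eq_one hx.symm
        rcases this with h' | h' <;> nlinarith
      · obtain ⟨h1, h2⟩ := h
        rw [h1] at h2
        norm_num at h2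
      · obtain ⟨x, hx⟩ : (2 * (s : ℤ) ^ 2 - 1) ∣ (1 : ℤ) := ⟨(s : ℤ) - (2 * (s : ℤ) ^ 2 + 1), by
          linear_combination h⟩
        have := Int.eq_one_or_neg_one_of_mul_eq_one hx.symm
        rcases this with h' | h' <;> nlinarith
    simp only [n, this, Finset.card_singleton, Nat.cast_one]
  have hn2 : n 2 ≤ (s : ℤ) ^ 2 - 1 := by
    have h := card_principal_le hT (Finset.univ.filter fun χ : IrrCharacter (grp (theta F m)) => cls χ = 2)
      fun χ hχ => h2 χ (Finset.mem_filter.1 hχ).2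
    rw [hqsN] at h
    have : ((2 * (Finset.univ.filter fun χ : IrrCharacter (grp (theta F m)) => cls χ = 2).card + 2 : ℕ) : ℤ) ≤
        ((2 * s ^ 2 : ℕ) : ℤ) := by exact_mod_cast h
    push_cast at this
    show (_ : ℤ) ≤ _
    linarith
  have hn5 : s ≠ 2 → n 5 = 0 := by
    intro hne
    by_contra hc
    have h0 : 0 ≤ n 5 := Int.natCast_nonneg _
    obtain ⟨χ, hχ⟩ := hex 5 (by omega)
    exact hne (by exact_mod_cast hχ.1)
  -- columns
  choose Y hY hY0 hYP using fun χ => exists_Y hP χ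
  choose Z hZ hZ0 hZP using fun χ => exists_Y hM χ
  have hsumY : ∀ {A : Subgroup (grp (theta F m))} {a : ℕ}, Torus A a → ∀ W : IrrCharacter (grp (theta F m)) → ℤ,
      (∀ χ : IrrCharacter (grp (theta F m)), offSum A (χ : grp (theta F m) → ℂ) = 4 * (W χ : ℝ)) → 4 * ∑ χ, W χ = ((a : ℤ) - 1) * a := by
    intro A a hA W hW
    have h := sum_offSum hA
    simp only [hW, ← Finset.mul_sum] at h
    exact_mod_cast h
  have cY := hsumY hP Y hY
  have cZ := hsumY hM Z hZ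
  set sZ : ℤ := (s : ℤ) with hsZ
  set a : ℤ := 2 * sZ ^ 2 + 2 * sZ + 1 with ha
  set b : ℤ := 2 * sZ ^ 2 - 2 * sZ + 1 with hb
  have hapZ : (ap : ℤ) = a := by rw [hap, ha]; push_cast; rfl
  rw [hapZ] at cY hYP
  rw [hbZ] at cZ hZP
  have ha5 : 5 ≤ a := by nlinarith
  have hb5 : 5 ≤ b := by nlinarith
  obtain ⟨e, he⟩ : ∃ e, 4 * e = a - 1 := by
    rcases Int.even_or_odd sZ with ⟨x, hx⟩ | ⟨x, hx⟩
    · exact ⟨2 * x ^ 2 + x, by rw [ha, hx]; ring⟩
    · exact ⟨2 * x ^ 2 + 3 * x + 1, by rw [ha, hx]; ring⟩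
  obtain ⟨e', he'⟩ : ∃ e', 4 * e' = b - 1 := by
    rcases Int.even_or_odd sZ with ⟨x, hx⟩ | ⟨x, hx⟩
    · exact ⟨2 * x ^ 2 - x, by rw [hb, hx]; ring⟩
    · exact ⟨2 * x ^ 2 + x, by rw [hb, hx]; ring⟩
  -- non-divisibility
  have hpn : a * b = (2 * sZ ^ 2) ^ 2 + 1 := by rw [ha, hb]; ring
  have ndvd : ∀ c, (5 : ℤ) ≤ c → c ∣ a * b → IsCoprime (2 * sZ ^ 2 - 1) c →
      ¬ c ∣ 1 ∧ ¬ c ∣ (2 * sZ ^ 2) ^ 2 ∧ ¬ c ∣ (2 * sZ ^ 2 - 1) * sZ := by
    intro c hc5 hcd hcc
    have hn1 : ¬ c ∣ 1 := fun h => by have := Int.le_of_dvd (by norm_num) h; omega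
    refine ⟨hn1, fun h => hn1 ?_, fun h => hn1 ?_⟩
    · have := dvd_sub (hpn ▸ hcd) h; simpa using this
    · have h1 : c ∣ sZ := hcc.symm.dvd_of_dvd_mul_left h
      have h2 : c ∣ (2 * sZ ^ 2) ^ 2 := h1.trans ⟨4 * sZ ^ 3, by ring⟩
      have := dvd_sub (hpn ▸ hcd) h2; simpa using this
  obtain ⟨a1, a2, a3⟩ := ndvd a ha5 (dvd_mul_right _ _) hca
  obtain ⟨b1, b2, b3⟩ := ndvd b hb5 (dvd_mul_left _ _) hcb
  have ha4 : a % 4 = 1 := by omega
  have hb4 : b % 4 = 1 := by omega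
  have lowY : ∀ χ, (![e, e, 0, 0, a - 4, if sZ = 2 then e else 0, e] : Fin 7 → ℤ) (cls χ) ≤ Y χ := by
    intro χ
    have h := hk χ
    have hl : ¬ a ∣ (charDegree (χ : grp (theta F m) → ℂ) : ℤ) → e ≤ Y χ := fun hd => by
      have := (hYP χ).lower ha5 hd; omega
    generalize cls χ = i at h ⊢
    fin_cases i <;> simp only [Kindly, Fin.zero_eta, Fin.mk_one, Fin.reduceFinMk, Matrix.cons_val] at h ⊢
    · exact hl (h ▸ a1)
    · exact hl (h ▸ a2)
    · exact hY0 χ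
    · exact hY0 χ
    · refine (hYP χ).lower_four ha5 ha4 ⟨2 * sZ ^ 2 - 4 * sZ + 3, ?_⟩
      rw [h, ha]; ring
    · rw [if_pos h.1]
      refine hl ?_
      rw [h.2, ha, h.1]; norm_num
    · exact hl (h ▸ a3)
  have lowZ : ∀ χ, (![e', e', 0, b - 4, 0, 0, e'] : Fin 7 → ℤ) (cls χ) ≤ Z χ := by
    intro χ
    have h := hk χ
    have hl : ¬ b ∣ (charDegree (χ : grp (theta F m) → ℂ) : ℤ) → e' ≤ Z χ := fun hd => by
      have := (hZP χ).lower hb5 hd; omega
    generalize cls χ = i at h ⊢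
    fin_cases i <;> simp only [Kindly, Fin.zero_eta, Fin.mk_one, Fin.reduceFinMk, Matrix.cons_val] at h ⊢
    · exact hl (h ▸ b1)
    · exact hl (h ▸ b2)
    · exact hZ0 χ
    · refine (hZP χ).lower_four hb5 hb4 ⟨2 * sZ ^ 2 + 4 * sZ + 3, ?_⟩
      rw [h, hb]; ring
    · exact hZ0 χ
    · exact hZ0 χ
    · exact hl (h ▸ b3)
  have sY := Finset.sum_le_sum fun χ (_ : χ ∈ Finset.univ) => lowY χ
  have sZs := Finset.sum_le_sum fun χ (_ : χ ∈ Finset.univ) => lowZ χ
  rw [hsum] at sY sZs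
  simp only [Matrix.cons_val, hn0, hn1, mul_zero, add_zero] at sY sZs
  -- squares
  have hsq : ∑ χ : IrrCharacter (grp (theta F m)), (charDegree (χ : grp (theta F m) → ℂ) : ℤ) ^ 2 =
      (2 * sZ ^ 2) ^ 2 * ((2 * sZ ^ 2) ^ 2 + 1) * (2 * sZ ^ 2 - 1) := by
    have h := sum_charDegree_sq (G := grp (theta F m))
    rw [card_grp hT, hqsN] at h
    have h1 : 1 ≤ 2 * s ^ 2 := by
      have := Nat.one_le_pow 2 s (by omega)
      omega
    have h' := congrArg (fun x : ℕ => (x : ℤ)) h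
    simp only [Nat.cast_sum, Nat.cast_pow, Nat.cast_mul, Nat.cast_sub h1, Nat.cast_add] at h'
    exact h'.trans (by norm_num [hsZ])
  rw [Finset.sum_congr rfl fun χ _ => kindly_dvd (hk χ), hsum] at hsq
  simp only [Matrix.cons_val, hn0, hn1] at hsq
  have nn : ∀ i, 0 ≤ n i := fun i => Int.natCast_nonneg _
  have hp' : 4 * ∑ χ, Y χ = (a - 1) * a := cY
  have hm' : 4 * ∑ χ, Z χ = (b - 1) * b := cZ
  have hmain : 0 < n 6 ∧ 0 < n 3 ∧ (0 < n 4 ∨ 0 < n 5) := by
    rcases hs with hs | hs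
    · have hs' : sZ = 2 := by rw [hsZ, hs]; norm_num
      have ea : a = 13 := by rw [ha, hs']; norm_num
      have eb : b = 5 := by rw [hb, hs']; norm_num
      have ee : e = 3 := by omega
      have ee' : e' = 1 := by omega
      rw [ea] at hp'
      rw [eb] at hm'
      rw [if_pos hs', ea, ee] at sY
      rw [eb, ee'] at sZs
      rw [hs'] at hsq hn2
      norm_num at hsq hn2 sY sZs hp' hm'
      obtain ⟨r1, r2, r3⟩ := counting_eight (nS := n 2) (nP := n 3) (n₃ := n 4) (n₁₅ := n 5) (nO := n 6)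
        (by omega) (nn 2) (nn 3) (nn 4) (nn 5) (nn 6) (by omega) (by omega) (by omega)
      exact ⟨r1, r2, by omega⟩
    · rw [hn5 (by omega)] at sY hsq
      have hs' : sZ ≠ 2 := by omega
      rw [if_neg hs'] at sY
      have g1 : n 6 * e + n 4 * (a - 4) ≤ (a - 2) * e := by
        have : (a - 2) * e = e * a - 2 * e := by ring
        nlinarith
      have g2 : n 6 * e' + n 3 * (b - 4) ≤ (b - 2) * e' := by
        have : (b - 2) * e' = e' * b - 2 * e' := by ring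
        nlinarith
      obtain ⟨r1, r2, r3⟩ := counting (s := sZ) (nS := n 2) (nP := n 3) (nM := n 4) (nO := n 6)
        (e := e) (e' := e') (by omega) hn2 (nn 2) (nn 3) (nn 4) (nn 6) ha hb he he' g1 g2
        (by linear_combination hsq)
      exact ⟨r1, r2, Or.inl r3⟩
  have hn2pos : 0 < n 2 := by
    obtain ⟨φ, hφ⟩ : ∃ l : Fˣ →* ℂˣ, l ≠ 1 := by
      haveI : Nontrivial (Fˣ →* ℂˣ) := by
        rw [← Fintype.one_lt_card_iff_nontrivial, ← Nat.card_eq_fintype_card, card_monoidHom_units,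
          (commutator_eq_bot_iff_center_eq_top _).2 CommGroup.center_eq_top, Subgroup.index_bot,
          Nat.card_units, hqsN]
        have : 4 ≤ s ^ 2 := by nlinarith
        omega
      exact exists_ne 1
    let χ : IrrCharacter (grp (theta F m)) := ⟨_, principal_irr hT hφ⟩
    have h := hk χ
    rw [show (charDegree (χ : grp (theta F m) → ℂ) : ℤ) = (2 * sZ ^ 2) ^ 2 + 1 by
      rw [charDegree_eq_of_map_one (n := Nat.card F ^ 2 + 1) (by
        show principal hT φ 1 = _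
        rw [principal_one]; push_cast; rfl), hqsN]
      push_cast; rfl] at h
    have hcls : cls χ = 2 := by
      have hc1 : ∀ c : ℤ, c = a ∨ c = b ∨ c = sZ → (2 * sZ ^ 2) ^ 2 + 1 ≠ (2 * sZ ^ 2 - 1) * c := by
        intro c _ e
        obtain ⟨x, hx⟩ : (2 * sZ ^ 2 - 1) ∣ (2 : ℤ) := ⟨c - (2 * sZ ^ 2 + 1), by linear_combination e⟩
        have := Int.le_of_dvd (by norm_num) ⟨x, hx⟩
        nlinarith
      generalize hg : cls χ = i at h ⊢
      fin_cases i <;> simp only [Kindly, Fin.zero_eta, Fin.mk_one, Fin.reduceFinMk, Matrix.cons_val] at h ⊢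
      · exfalso; nlinarith
      · exfalso; omega
      · exact absurd h (hc1 _ (Or.inl rfl))
      · exact absurd h (hc1 _ (Or.inr (Or.inl rfl)))
      · exfalso; rw [h.1] at h; norm_num at h
      · exact absurd h (hc1 _ (Or.inr (Or.inr rfl)))
    show (0 : ℤ) < ((Finset.univ.filter fun χ : IrrCharacter (grp (theta F m)) => cls χ = 2).card : ℤ)
    exact Int.natCast_pos.2 (Finset.card_pos.2 ⟨χ, Finset.mem_filter.2 ⟨Finset.mem_univ _, hcls⟩⟩)
  intro i hi4 hi5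
  refine ⟨?_, ?_⟩
  · fin_cases i
    · exact hex 0 (by rw [hn0]; norm_num)
    · exact hex 1 (by rw [hn1]; norm_num)
    · exact hex 2 hn2pos
    · exact hex 3 hmain.2.1
    · exact absurd rfl hi4
    · exact absurd rfl hi5
    · exact hex 6 hmain.1
  · rcases hmain.2.2 with h | h
    · exact (hex 4 h).imp fun χ hχ => Or.inl hχ
    · exact (hex 5 h).imp fun χ hχ => Or.inr hχ

end CfsgLib.SuzukiDeg
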