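import Mathlib

/-!
The arithmetic behind the degrees of the Suzuki groups, with `s = 2 ^ m`, `q = 2 s²`, the two tori of
orders `2 s² + 2 s + 1` and `2 s² - 2 s + 1`.
-/

set_option autoImplicit false

namespace CfsgLib.SuzukiDeg

/-- The two possible shapes of a profile of norm `4 Y` on a torus of order `a`. -/
def Prof (a d Y : ℤ) : Prop :=
  (∃ k : ℤ, a ∣ d + k ∧ 4 * Y = (a - 1) * k ^ 2) ∨ ∃ C : ℤ, a ∣ d - 4 * C ∧ a - 5 + |C| ≤ Y

theorem abs_le_two_of_sq {k : ℤ} (h : k ^ 2 ≤ 7) : -2 ≤ k ∧ k ≤ 2 := by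
  constructor <;> nlinarith

variable {a d Y : ℤ}

theorem Prof.const_small (ha : 5 ≤ a) (hY : Y < a) {k : ℤ} (h : 4 * Y = (a - 1) * k ^ 2) :
    -2 ≤ k ∧ k ≤ 2 := by
  refine abs_le_two_of_sq ?_
  by_contra hc
  push Not at hc
  nlinarith

theorem Prof.dvd_of_prime (h : Prof a d Y) (ha : 5 ≤ a) (hY : Y < a) {r : ℕ} (hr : r.Prime)
    (hr5 : 5 ≤ r) (hra : (r : ℤ) ∣ a) (hrd : (r : ℤ) ∣ d) : a ∣ d := by
  have hr' : Prime (r : ℤ) := Nat.prime_iff_prime_int.1 hr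
  rcases h with ⟨k, hk, hY'⟩ | ⟨C, hC, hY'⟩
  · have hs := Prof.const_small ha hY hY'
    have h1 : (r : ℤ) ∣ k := by simpa using dvd_sub (hra.trans hk) hrd
    have : k = 0 := Int.eq_zero_of_abs_lt_dvd h1 (by rw [abs_lt]; omega)
    simpa [this] using hk
  · have h1 : (r : ℤ) ∣ 4 * C := by simpa using dvd_sub hrd (hra.trans hC)
    have h2 : (r : ℤ) ∣ C := (hr'.dvd_or_dvd h1).resolve_left fun h4 => by
      have := Int.le_of_dvd (by norm_num) h4; omega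
    have : C = 0 := Int.eq_zero_of_abs_lt_dvd h2 (by omega)
    simpa [this] using hC

theorem Prof.lower (h : Prof a d Y) (ha : 5 ≤ a) (hd : ¬ a ∣ d) : a - 1 ≤ 4 * Y := by
  rcases h with ⟨k, hk, hY⟩ | ⟨C, hC, hY⟩
  · have hk0 : k ≠ 0 := fun e => hd (by simpa [e] using hk)
    have : 1 ≤ k ^ 2 := by have := sq_pos_of_ne_zero hk0; omega
    nlinarith
  · have hC0 : C ≠ 0 := fun e => hd (by simpa [e] using hC)
    have : 1 ≤ |C| := Int.one_le_abs hC0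
    omega

theorem Prof.lower_four (h : Prof a d Y) (ha : 5 ≤ a) (ha4 : a % 4 = 1) (hd : a ∣ d + 4) :
    a - 4 ≤ Y := by
  have hnd : ¬ a ∣ d := fun h' => by
    have := Int.le_of_dvd (by norm_num) (by simpa using dvd_sub hd h' : a ∣ 4)
    omega
  have hl := h.lower ha hnd
  rcases h with ⟨k, hk, hY⟩ | ⟨C, hC, hY⟩
  · by_cases ha5 : a = 5
    · omega
    · have ha9 : 9 ≤ a := by omega
      by_contra hc
      push Not at hc
      have hk2 := Prof.const_small ha (by omega) hY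
      have h1 : a ∣ 4 - k := by simpa using dvd_sub hd hk
      have := Int.eq_zero_of_abs_lt_dvd h1 (by rw [abs_lt]; omega)
      omega
  · have hC0 : C ≠ 0 := fun e => hnd (by simpa [e] using hC)
    have : 1 ≤ |C| := Int.one_le_abs hC0
    omega

/-- A degree divisible by one torus: the multiplier is one, but for `q = 8`. -/
theorem torus_multiple {s a' j : ℤ} {d Y : ℤ} (hs : s = 2 ∨ 4 ≤ s)
    (ha : a = 2 * s ^ 2 + 2 * s + 1 ∧ a' = 2 * s ^ 2 - 2 * s + 1 ∨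
      a = 2 * s ^ 2 - 2 * s + 1 ∧ a' = 2 * s ^ 2 + 2 * s + 1)
    (hj : 1 ≤ j) (hY0 : 0 ≤ Y) (hb : 2 * a * j ^ 2 + (2 * s ^ 2 + 1) * Y ≤ (2 * s ^ 2 + 1) * a')
    (hP : Prof a' d Y) (hd : a' ∣ d + 4 * j) :
    j = 1 ∨ (s = 2 ∧ a = 5 ∧ j = 3) := by
  by_contra hne
  push Not at hne
  obtain ⟨hj1, hne⟩ := hne
  have hj2 : 2 ≤ j := by omega
  have hsmall : 4 * j + 2 < a' := by
    rcases hs with rfl | hs
    · rcases ha with ⟨rfl, rfl⟩ | ⟨rfl, rfl⟩
      · exfalso; nlinarith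
      · have hj3 : j ≤ 3 := by nlinarith
        have : j ≠ 3 := fun e => hne rfl (by norm_num) e
        norm_num
        omega
    · by_contra hc
      push Not at hc
      have hb' : 2 * a * j ^ 2 ≤ (2 * s ^ 2 + 1) * a' := by nlinarith
      have hlo : 25 ≤ 2 * s ^ 2 - 2 * s + 1 := by nlinarith
      have h4 : 3 * (2 * s ^ 2 + 1) ≤ 4 * (2 * s ^ 2 - 2 * s + 1) := by nlinarith
      have haLo : 2 * s ^ 2 - 2 * s + 1 ≤ a ∧ 2 * s ^ 2 - 2 * s + 1 ≤ a' := by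
        rcases ha with ⟨h1, h2⟩ | ⟨h1, h2⟩ <;> constructor <;> nlinarith
      have h16 : (a' - 2) ^ 2 ≤ 16 * j ^ 2 := by nlinarith
      have h5 : 3 * (2 * s ^ 2 + 1) * (a' - 2) ^ 2 ≤ 4 * a * (a' - 2) ^ 2 :=
        mul_le_mul_of_nonneg_right (by linarith [haLo.1]) (sq_nonneg _)
      have h6 : 4 * a * (a' - 2) ^ 2 ≤ 32 * ((2 * s ^ 2 + 1) * a') := by nlinarith
      have h7 : (2 * s ^ 2 + 1) * (3 * (a' - 2) ^ 2) ≤ (2 * s ^ 2 + 1) * (32 * a') := by linarith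
      have h8 : 3 * (a' - 2) ^ 2 ≤ 32 * a' := le_of_mul_le_mul_left h7 (by positivity)
      nlinarith
  have ha5 : 5 ≤ a' := by omega
  have haj : 0 < 2 * a * j ^ 2 := by
    rcases ha with ⟨h1, -⟩ | ⟨h1, -⟩ <;>
      exact mul_pos (by nlinarith) (by positivity)
  have hY : Y < a' := by
    by_contra hc
    push Not at hc
    nlinarith [mul_le_mul_of_nonneg_left hc (by positivity : (0 : ℤ) ≤ 2 * s ^ 2 + 1)]
  rcases hP with ⟨k, hk, hY'⟩ | ⟨C, hC, hY'⟩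
  · have hk2 := Prof.const_small ha5 hY hY'
    have h1 : a' ∣ 4 * j - k := by simpa using dvd_sub hd hk
    have := Int.eq_zero_of_abs_lt_dvd h1 (by rw [abs_lt]; omega)
    omega
  · have h1 : a' ∣ 4 * (j + C) := by
      have := dvd_sub hd hC
      rwa [show d + 4 * j - (d - 4 * C) = 4 * (j + C) by ring] at this
    have h2 : a' ∣ j + C := by
      refine Int.dvd_of_dvd_mul_right_of_gcd_one (b := 4) h1 ?_
      have hco : Int.gcd a' 4 = 1 := by
        rw [Int.gcd_def]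
        have : a' % 2 = 1 := by rcases ha with ⟨-, rfl⟩ | ⟨-, rfl⟩ <;> omega
        have hn : a'.natAbs % 2 = 1 := by omega
        have : Nat.Coprime a'.natAbs (2 ^ 2) := Nat.Coprime.pow_right 2 (Nat.coprime_two_right.2 (Nat.odd_iff.2 hn))
        exact this
      exact hco
    have hC4 : |C| ≤ 4 := by omega
    have := abs_le.1 hC4
    have h0 : j + C = 0 := Int.eq_zero_of_abs_lt_dvd h2 (by rw [abs_lt]; omega)
    have hCj : |C| = j := by rw [show C = -j by omega, abs_neg, abs_of_pos (by omega)]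
    have hY5 : a' - 5 + j ≤ Y := hCj ▸ hY'
    have haBig : 3 * (2 * s ^ 2 + 1) < 8 * a := by
      rcases hs with rfl | hs
      · rcases ha with ⟨rfl, -⟩ | ⟨rfl, -⟩ <;> norm_num
      · rcases ha with ⟨h1, -⟩ | ⟨h1, -⟩ <;> nlinarith
    have h8 : 8 * a ≤ 2 * a * j ^ 2 := by
      have hj4 : (4 : ℤ) ≤ j ^ 2 := by nlinarith
      linarith [mul_le_mul_of_nonneg_left hj4 (show (0 : ℤ) ≤ 2 * a by
        rcases ha with ⟨h1, -⟩ | ⟨h1, -⟩ <;> nlinarith)]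
    nlinarith [mul_le_mul_of_nonneg_left hY5 (by positivity : (0 : ℤ) ≤ 2 * s ^ 2 + 1)]

/-- A degree prime to both tori. -/
theorem two_power {s t : ℤ} (hs : s = 2 ∨ 4 ≤ s) (ht : t = 1 ∨ t = 2 ∨ (4 ≤ t ∧ t % 4 = 0))
    (htb : t ≤ 2 * s ^ 2) {d Yp Ym : ℤ}
    (hdp : (2 * s ^ 2 + 2 * s + 1) ∣ d - t) (hPp : Prof (2 * s ^ 2 + 2 * s + 1) d Yp)
    (hYm : (2 * s ^ 2 - 2 * s + 1) - 1 ≤ 4 * Ym) (hYp0 : 0 ≤ Yp)
    (hb : 2 * (s * t) ^ 2 + (2 * s ^ 2 + 1) * (Yp * (2 * s ^ 2 - 2 * s + 1) + Ym * (2 * s ^ 2 + 2 * s + 1))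
      ≤ (2 * s ^ 2 + 1) * ((2 * s ^ 2 + 2 * s + 1) * (2 * s ^ 2 - 2 * s + 1))) : t = 1 := by
  by_contra hne
  have ht2 : 2 ≤ t := by omega
  have hs2 : 2 ≤ s := by omega
  set p := 2 * s ^ 2 + 2 * s + 1 with hp
  set n := 2 * s ^ 2 - 2 * s + 1 with hn
  have hn5 : 5 ≤ n := by nlinarith
  have hp13 : 13 ≤ p := by nlinarith
  have hpodd : p % 2 = 1 := by omega
  have hY : Yp < p := by
    by_contra hc
    push Not at hc
    have h1 : p * n ≤ Yp * n := by nlinarith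
    have h2 : 0 ≤ Ym * p := by nlinarith
    have h3 : 0 < 2 * (s * t) ^ 2 := by positivity
    nlinarith
  -- the lower bound on the first profile
  have hcase : (t = 2 ∧ p - 1 ≤ Yp) ∨ (4 ≤ t ∧ p - 4 ≤ Yp) := by
    rcases hPp with ⟨k, hk, hY'⟩ | ⟨C, hC, hY'⟩
    · have hk2 := Prof.const_small (by omega) hY hY'
      have h1 : p ∣ t + k := by simpa [add_comm] using dvd_sub hk hdp
      have h0 : t + k = 0 := Int.eq_zero_of_abs_lt_dvd h1 (by rw [abs_lt]; omega)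
      left
      have : k = -2 := by omega
      subst this
      refine ⟨by omega, ?_⟩
      linarith
    · have h1 : p ∣ t - 4 * C := by
        have := dvd_sub hC hdp
        rwa [show d - 4 * C - (d - t) = t - 4 * C by ring] at this
      have hC4 : |C| ≤ 4 := by omega
      have := abs_le.1 hC4
      have hlt : |t - 4 * C| < 2 * p := by rw [abs_lt]; constructor <;> nlinarith
      obtain ⟨x, hx⟩ := h1
      have hx1 : -1 ≤ x ∧ x ≤ 1 := by rw [hx, abs_lt] at hlt; constructor <;> nlinarith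
      have htev : t % 2 = 0 := by omega
      have hx0 : x = 0 := by
        rcases (by omega : x = -1 ∨ x = 0 ∨ x = 1) with rfl | rfl | rfl
        · omega
        · rfl
        · omega
      subst hx0
      have ht4C : t = 4 * C := by omega
      have : |C| = C := abs_of_pos (by omega)
      right
      exact ⟨by omega, by omega⟩
  have hq : 0 < 2 * s ^ 2 + 1 := by positivity
  rcases hcase with ⟨rfl, hY'⟩ | ⟨ht4, hY'⟩
  · have h1 : (p - 1) * n ≤ Yp * n := by nlinarith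
    have h2 : (n - 1) * p ≤ 4 * (Ym * p) := by nlinarith
    have h3 : 4 * (p * n) < 4 * (Yp * n) + 4 * (Ym * p) := by nlinarith
    have h4 : (2 * s ^ 2 + 1) * (p * n) < (2 * s ^ 2 + 1) * (Yp * n + Ym * p) :=
      mul_lt_mul_of_pos_left (by linarith) hq
    nlinarith
  · have h1 : (p - 4) * n ≤ Yp * n := by nlinarith
    have h2 : (n - 1) * p ≤ 4 * (Ym * p) := by nlinarith
    have h4 : (2 * s ^ 2 + 1) * (4 * (p - 4) * n + (n - 1) * p) ≤
        (2 * s ^ 2 + 1) * (4 * (Yp * n + Ym * p)) :=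
      mul_le_mul_of_nonneg_left (by linarith) hq.le
    have h5 : 16 * s ^ 2 ≤ (s * t) ^ 2 := by
      rw [mul_pow, mul_comm (16 : ℤ)]
      exact mul_le_mul_of_nonneg_left (by nlinarith) (sq_nonneg _)
    rcases hs with rfl | hs
    · norm_num [hp, hn] at h4 hb h5 ⊢
      nlinarith
    · have : 0 ≤ n * p - p - 16 * n := by nlinarith
      have : (2 * s ^ 2 + 1) * (4 * (p * n)) ≤ (2 * s ^ 2 + 1) * (4 * (p - 4) * n + (n - 1) * p) :=
        mul_le_mul_of_nonneg_left (by linarith) hq.le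
      nlinarith

/-- Existence of the three families from the two column relations and the sum of squares. -/
theorem counting {s nS nP nM nO : ℤ} (hs : 4 ≤ s) (hnS : nS ≤ s ^ 2 - 1) (hS0 : 0 ≤ nS)
    (hP0 : 0 ≤ nP) (hM0 : 0 ≤ nM) (hO0 : 0 ≤ nO) {e e' a a' : ℤ}
    (ha : a = 2 * s ^ 2 + 2 * s + 1) (ha' : a' = 2 * s ^ 2 - 2 * s + 1)
    (he : 4 * e = a - 1) (he' : 4 * e' = a' - 1)
    (hp : nO * e + nM * (a - 4) ≤ (a - 2) * e) (hm : nO * e' + nP * (a' - 4) ≤ (a' - 2) * e')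
    (hsum : 1 + (2 * s ^ 2) ^ 4 + nS * (4 * s ^ 4 + 1) ^ 2 + (2 * s ^ 2 - 1) ^ 2 *
        (nP * a ^ 2 + nM * a' ^ 2 + nO * s ^ 2) =
      (2 * s ^ 2) ^ 2 * (4 * s ^ 4 + 1) * (2 * s ^ 2 - 1)) :
    0 < nO ∧ 0 < nP ∧ 0 < nM := by
  have hid : (2 * s ^ 2) ^ 2 * (4 * s ^ 4 + 1) * (2 * s ^ 2 - 1) =
      1 + (2 * s ^ 2) ^ 4 + (s ^ 2 - 1) * (4 * s ^ 4 + 1) ^ 2 + (2 * s ^ 2 - 1) ^ 2 *
        (e' * a ^ 2 + e * a' ^ 2 + 2 * s ^ 2) := by
    have h1 : 2 * e = s ^ 2 + s := by linarith [ha ▸ he]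
    have h2 : 2 * e' = s ^ 2 - s := by linarith [ha' ▸ he']
    have key : 2 * ((2 * s ^ 2) ^ 2 * (4 * s ^ 4 + 1) * (2 * s ^ 2 - 1)) =
      2 * (1 + (2 * s ^ 2) ^ 4 + (s ^ 2 - 1) * (4 * s ^ 4 + 1) ^ 2) + (2 * s ^ 2 - 1) ^ 2 *
        ((2 * e') * a ^ 2 + (2 * e) * a' ^ 2 + 4 * s ^ 2) := by
      rw [h1, h2, ha, ha']; ring
    linarith
  have hW : 0 < (2 * s ^ 2 - 1) ^ 2 := by
    have : 0 < 2 * s ^ 2 - 1 := by nlinarith
    positivity
  have hS : nS * (4 * s ^ 4 + 1) ^ 2 ≤ (s ^ 2 - 1) * (4 * s ^ 4 + 1) ^ 2 :=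
    mul_le_mul_of_nonneg_right hnS (sq_nonneg _)
  have hrest : e' * a ^ 2 + e * a' ^ 2 + 2 * s ^ 2 ≤ nP * a ^ 2 + nM * a' ^ 2 + nO * s ^ 2 :=
    le_of_mul_le_mul_left (by linarith) hW
  have he10 : 10 ≤ e := by nlinarith
  have he6 : 6 ≤ e' := by nlinarith
  have haa : a' ≤ a := by linarith
  have hM : nM * (a - 4) < (e + 1) * (a - 4) := by nlinarith
  have hP : nP * (a' - 4) < (e' + 1) * (a' - 4) := by nlinarith
  have hMe : nM ≤ e := by
    have := lt_of_mul_lt_mul_right hM (by linarith)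
    omega
  have hPe : nP ≤ e' := by
    have := lt_of_mul_lt_mul_right hP (by linarith)
    omega
  have hs2 : s ^ 2 ≤ a' := by nlinarith
  have hsq : (4 : ℤ) ≤ s := hs
  refine ⟨?_, ?_, ?_⟩
  · by_contra hc
    have : nO = 0 := by omega
    subst this
    nlinarith [mul_le_mul_of_nonneg_right hPe (sq_nonneg a), mul_le_mul_of_nonneg_right hMe (sq_nonneg a')]
  · by_contra hc
    have : nP = 0 := by omega
    subst this
    have h1 : nO * s ^ 2 * (a - 4) ≤ nO * e * a' ^ 2 := by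
      have : s ^ 2 * (a - 4) ≤ e * a' ^ 2 := by
        have : s ^ 2 * (a - 4) ≤ a' * (4 * e) := by nlinarith
        nlinarith
      nlinarith
    have h2 : (nM * a' ^ 2 + nO * s ^ 2) * (a - 4) ≤ (a - 2) * e * a' ^ 2 := by
      nlinarith [mul_le_mul_of_nonneg_right hp (sq_nonneg a')]
    have h3 : (e' * a ^ 2 + e * a' ^ 2 + 2 * s ^ 2) * (a - 4) ≤ (a - 2) * e * a' ^ 2 :=
      le_trans (mul_le_mul_of_nonneg_right (by linarith) (by linarith)) h2
    have h4 : 2 * e * a' ^ 2 < e' * a ^ 2 * (a - 4) := by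
      have : a' ^ 2 ≤ a ^ 2 := by nlinarith
      have : 2 * e < e' * (a - 4) := by nlinarith
      nlinarith
    nlinarith
  · by_contra hc
    have : nM = 0 := by omega
    subst this
    have h1 : nO * s ^ 2 * (a' - 4) ≤ nO * e' * a ^ 2 := by
      have : s ^ 2 * (a' - 4) ≤ e' * a ^ 2 := by
        have : s ^ 2 * (a' - 4) ≤ a * (4 * e') := by nlinarith
        nlinarith
      nlinarith
    have h2 : (nP * a ^ 2 + nO * s ^ 2) * (a' - 4) ≤ (a' - 2) * e' * a ^ 2 := by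
      nlinarith [mul_le_mul_of_nonneg_right hm (sq_nonneg a)]
    have h3 : (e' * a ^ 2 + e * a' ^ 2 + 2 * s ^ 2) * (a' - 4) ≤ (a' - 2) * e' * a ^ 2 :=
      le_trans (mul_le_mul_of_nonneg_right (by linarith) (by linarith)) h2
    have h4 : 2 * e' * a ^ 2 < e * a' ^ 2 * (a' - 4) := by
      have : a ≤ 2 * a' := by nlinarith
      have : a ^ 2 ≤ 4 * a' ^ 2 := by nlinarith
      have : 8 * e' < e * (a' - 4) := by nlinarith
      nlinarith
    nlinarith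

/-- The case of eight. -/
theorem counting_eight {nS nP n₃ n₁₅ nO : ℤ} (hnS : nS ≤ 3) (hS0 : 0 ≤ nS)
    (hP0 : 0 ≤ nP) (h30 : 0 ≤ n₃) (h150 : 0 ≤ n₁₅) (hO0 : 0 ≤ nO)
    (hp : 3 * nO + 9 * n₃ + 3 * n₁₅ ≤ 33) (hm : nO + nP ≤ 3)
    (hsum : 4225 * nS + 8281 * nP + 1225 * n₃ + 11025 * n₁₅ + 196 * nO = 25023) :
    0 < nO ∧ 0 < nP ∧ 0 < n₃ + n₁₅ := by
  have hO3 : nO ≤ 3 := by omega
  have hP3 : nP ≤ 3 := by omega
  have h33 : n₃ ≤ 3 := by omega
  have h153 : n₁₅ ≤ 11 := by omega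
  interval_cases nO <;> interval_cases nP <;> interval_cases nS <;> omega

end CfsgLib.SuzukiDeg
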