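import Cfsg.Agent.Suzuki.Partition
import Cfsg.Agent.Chars.Basic
import Cfsg.Agent.Chars.Induced.Rep
import Cfsg.Agent.Eq.Def_Characters

/-!
The irreducible characters of the Suzuki group with fixed vectors of the translations (principal series),
and the vanishing on the split torus of the others.
-/

set_option autoImplicit false

open Cfsg
open scoped ComplexConjugate

namespace CfsgLib.SuzukiDeg

open CfsgLib.Suzuki CfsgLib.Chars

variable {F : Type*} [Field F] [CharP F 2] [Finite F] {θ : F →+* F} (hT : TitsEndo θ)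

include hT in
theorem odd_card_units : Odd (Nat.card Fˣ) := by
  obtain ⟨k, hk, hc⟩ := card_field (F := F)
  rw [Nat.card_units, hc]
  exact Nat.Even.sub_odd Nat.one_le_two_pow (even_two.pow_of_ne_zero (by omega)) odd_one

theorem tElt_mem_uGrp_iff {t : Fˣ} : tElt hT t ∈ uGrp hT ↔ t = 1 := by
  constructor
  · intro ⟨a, b, h⟩
    have h0 : pt θ a b = pt θ 0 0 := by
      rw [← uElt_smul_pt_zero hT, ← h]
      exact tMat_smul_pt_zero hT t
    obtain ⟨rfl, rfl⟩ := (pt_inj θ).1 h0
    refine tHom_injective hT ?_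
    show tElt hT t = tHom hT 1
    rw [map_one, h, uElt_zero]
  · rintro rfl
    rw [tElt_one]; exact one_mem _

theorem exists_torus_part (b : stabInf θ) : ∃ t : Fˣ, (b : grp θ) * (tElt hT t)⁻¹ ∈ uGrp hT := by
  obtain ⟨a, c, t, h⟩ := exists_of_mem_stabInf hT b.2
  exact ⟨t, by rw [h, mul_inv_cancel_right]; exact uElt_mem hT a c⟩

/-- The torus part of an element of the Borel subgroup. -/
noncomputable def torusPart (b : stabInf θ) : Fˣ := (exists_torus_part hT b).choose

theorem torusPart_spec (b : stabInf θ) : (b : grp θ) * (tElt hT (torusPart hT b))⁻¹ ∈ uGrp hT :=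
  (exists_torus_part hT b).choose_spec

theorem torusPart_eq {b : stabInf θ} {u : grp θ} {t : Fˣ} (hu : u ∈ uGrp hT)
    (h : (b : grp θ) = u * tElt hT t) : torusPart hT b = t := by
  have h1 := torusPart_spec hT b
  rw [h, mul_assoc, tElt_inv, tElt_mul, Subgroup.mul_mem_cancel_left _ hu, tElt_mem_uGrp_iff,
    mul_inv_eq_one] at h1
  exact h1.symm

/-- The projection of the Borel subgroup on the torus. -/
noncomputable def torusHom : stabInf θ →* Fˣ :=
  MonoidHom.mk' (torusPart hT) fun x y => by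
    have hx := torusPart_spec hT x
    have hy := torusPart_spec hT y
    refine torusPart_eq hT (u := ((x : grp θ) * (tElt hT (torusPart hT x))⁻¹) *
      (tElt hT (torusPart hT x) * ((y : grp θ) * (tElt hT (torusPart hT y))⁻¹) *
        (tElt hT (torusPart hT x))⁻¹)) (mul_mem hx (conj_mem_uGrp hT (tElt_mem_stabInf hT _) hy)) ?_
    rw [← tElt_mul, Subgroup.coe_mul]
    group

/-- The Borel subgroup as translations times torus. -/
noncomputable def borelEquiv : uGrp hT × Fˣ ≃ stabInf θ :=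
  Equiv.ofBijective
    (fun p => ⟨(p.1 : grp θ) * tElt hT p.2, mul_mem (uGrp_le_stabInf hT p.1.2) (tElt_mem_stabInf hT _)⟩)
    ⟨fun p p' h => by
      have ht : p.2 = p'.2 := by
        rw [← torusPart_eq hT p.1.2 (b := ⟨_, mul_mem (uGrp_le_stabInf hT p.1.2) (tElt_mem_stabInf hT p.2)⟩) rfl,
          ← torusPart_eq hT p'.1.2 (b := ⟨_, mul_mem (uGrp_le_stabInf hT p'.1.2) (tElt_mem_stabInf hT p'.2)⟩) rfl]
        exact congrArg _ h
      have h' : (p.1 : grp θ) * tElt hT p.2 = p'.1 * tElt hT p'.2 := congrArg Subtype.val h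
      rw [ht, mul_left_inj] at h'
      exact Prod.ext (Subtype.ext h') ht,
    fun b => ⟨(⟨_, torusPart_spec hT b⟩, torusPart hT b), Subtype.ext (inv_mul_cancel_right _ _)⟩⟩

theorem torusHom_borelEquiv (u : uGrp hT) (t : Fˣ) : torusHom hT (borelEquiv hT (u, t)) = t :=
  torusPart_eq hT u.2 rfl

/-- A non-trivial coset of the translations in the Borel subgroup is one class. -/
theorem exists_conj_tElt (u : uGrp hT) {t : Fˣ} (ht : t ≠ 1) :
    ∃ v : uGrp hT, (v : grp θ) * tElt hT t * (v : grp θ)⁻¹ = u * tElt hT t := by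
  have hmem : ∀ v : uGrp hT, (v : grp θ) * (tElt hT t * (v : grp θ)⁻¹ * (tElt hT t)⁻¹) ∈ uGrp hT :=
    fun v => mul_mem v.2 (conj_mem_uGrp hT (tElt_mem_stabInf hT t) (inv_mem v.2))
  let f : uGrp hT → uGrp hT := fun v => ⟨_, hmem v⟩
  have hf : Function.Injective f := by
    intro v w h
    have h' : (v : grp θ) * (tElt hT t * (v : grp θ)⁻¹ * (tElt hT t)⁻¹) =
        w * (tElt hT t * (w : grp θ)⁻¹ * (tElt hT t)⁻¹) := congrArg Subtype.val h
    have hc : (w : grp θ)⁻¹ * v ∈ Subgroup.centralizer {tElt hT t} := by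
      rw [Subgroup.mem_centralizer_singleton_iff]
      have h2 := congrArg (fun z => (w : grp θ)⁻¹ * z * tElt hT t * v) h'
      simpa [mul_assoc] using h2
    rw [centralizer_tGrp hT (tElt hT t) ⟨t, rfl⟩ fun e => ht (tHom_injective hT (e.trans (map_one _).symm))] at hc
    obtain ⟨s, hs⟩ := hc
    have hs' : tElt hT s = (w : grp θ)⁻¹ * v := hs
    have hs1 : s = 1 := (tElt_mem_uGrp_iff hT).1 (hs' ▸ mul_mem (inv_mem w.2) v.2)
    rw [hs1, tElt_one, eq_comm, inv_mul_eq_one] at hs'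
    exact Subtype.ext hs'.symm
  obtain ⟨v, hv⟩ := (Finite.injective_iff_surjective.1 hf) u
  refine ⟨v, ?_⟩
  rw [← hv]
  show _ = (v : grp θ) * (tElt hT t * (v : grp θ)⁻¹ * (tElt hT t)⁻¹) * tElt hT t
  group

theorem classFun_coset {f : grp θ → ℂ} (hf : IsClassFunction (grp θ) f) (u : uGrp hT) {t : Fˣ}
    (ht : t ≠ 1) : f (u * tElt hT t) = f (tElt hT t) := by
  obtain ⟨v, hv⟩ := exists_conj_tElt hT u ht
  rw [← hv]
  exact hf _ _

/-- Sums over a torus dual. -/
theorem sum_hom_apply [Fintype Fˣ] [Fintype (Fˣ →* ℂˣ)] [DecidableEq Fˣ] (t : Fˣ) :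
    ∑ l : Fˣ →* ℂˣ, ((l t : ℂˣ) : ℂ) = if t = 1 then (Nat.card Fˣ : ℂ) else 0 := by
  split_ifs with h
  · subst h
    simp only [map_one, Units.val_one, Finset.sum_const, Finset.card_univ, nsmul_eq_mul, mul_one,
      ← Nat.card_eq_fintype_card]
    rw [card_monoidHom_units, (commutator_eq_bot_iff_center_eq_top _).2 CommGroup.center_eq_top,
      Subgroup.index_bot]
  · haveI : NeZero (Monoid.exponent Fˣ : ℂ) :=
      ⟨Nat.cast_ne_zero.mpr Monoid.ExponentExists.of_finite.exponent_ne_zero⟩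
    obtain ⟨φ, hφ⟩ := CommGroup.exists_apply_ne_one_of_hasEnoughRootsOfUnity Fˣ ℂ h
    have h1 : ∑ l : Fˣ →* ℂˣ, ((l t : ℂˣ) : ℂ) = (φ t : ℂ) * ∑ l : Fˣ →* ℂˣ, ((l t : ℂˣ) : ℂ) := by
      conv_lhs => rw [← Equiv.sum_comp (Equiv.mulLeft φ)]
      simp [Finset.mul_sum]
    have h2 : ((φ t : ℂ) - 1) * ∑ l : Fˣ →* ℂˣ, ((l t : ℂˣ) : ℂ) = 0 := by
      rw [sub_mul, one_mul, ← h1, sub_self]
    exact (mul_eq_zero.1 h2).resolve_left (sub_ne_zero.2 fun e => hφ (Units.ext (by simpa using e)))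

theorem conj_hom (l : Fˣ →* ℂˣ) (t : Fˣ) : conj (l t : ℂ) = ((l t)⁻¹ : ℂˣ) := by
  have h := map_inv_eq_conj (isCharacter_coe (linChar l)) t
  simpa using h.symm

theorem sum_mul_conj [Fintype Fˣ] (l l' : Fˣ →* ℂˣ) [Decidable (l = l')] :
    ∑ t : Fˣ, ((l t : ℂˣ) : ℂ) * conj ((l' t : ℂˣ) : ℂ) = if l = l' then (Nat.card Fˣ : ℂ) else 0 := by
  classical
  have h := sum_hom_units ((Units.coeHom ℂ).comp (l / l'))
  have hiff : ((Units.coeHom ℂ).comp (l / l') = 1) ↔ l = l' := by
    constructor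
    · intro h
      refine MonoidHom.ext fun t => Units.ext ?_
      have := DFunLike.congr_fun h t
      simp only [MonoidHom.comp_apply, MonoidHom.div_apply, Units.coeHom_apply, MonoidHom.one_apply,
        Units.val_div_eq_div_val] at this
      exact (div_eq_one_iff_eq (Units.ne_zero _)).1 this
    · rintro rfl; ext t; simp
  simp only [hiff] at h
  rw [Nat.card_eq_fintype_card]
  convert h using 1
  swap; · split_ifs <;> simp
  refine Finset.sum_congr rfl fun t _ => ?_
  simp [conj_hom, div_eq_mul_inv]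

/-- The lift of a character of the torus to the Borel subgroup. -/
noncomputable def lift (l : Fˣ →* ℂˣ) : stabInf θ → ℂ := fun b => ((l (torusHom hT b) : ℂˣ) : ℂ)

/-- The principal series character. -/
noncomputable def principal [Fintype (grp θ)] (l : Fˣ →* ℂˣ) : grp θ → ℂ :=
  indFun (stabInf θ) (lift hT l)

theorem isCharacter_principal [Fintype (grp θ)] (l : Fˣ →* ℂˣ) :
    IsCharacter (grp θ) (principal hT l) :=
  CfsgLib.Chars.Induced.isCharacter_indFun_hom (stabInf θ)
    ((Units.coeHom ℂ).comp (l.comp (torusHom hT)))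

theorem mem_uGrp_of_odd_part {b : stabInf θ} {e : ℕ} (h : (b : grp θ) ^ 2 ^ e = 1) :
    (b : grp θ) ∈ uGrp hT ∧ torusHom hT b = 1 := by
  have h1 : torusHom hT b ^ 2 ^ e = 1 := by
    rw [← map_pow, show b ^ 2 ^ e = 1 from Subtype.ext h, map_one]
  have h2 : torusHom hT b = 1 := orderOf_eq_one_iff.1 (Nat.eq_one_of_dvd_coprimes
    ((Nat.coprime_two_left.2 (odd_card_units hT)).pow_left e) (orderOf_dvd_of_pow_eq_one h1)
      (orderOf_dvd_natCard _))
  refine ⟨?_, h2⟩
  have h3 := torusPart_spec hT b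
  rwa [show torusPart hT b = 1 from h2, tElt_one, inv_one, mul_one] at h3

theorem principal_translation [Fintype (grp θ)] (l : Fˣ →* ℂˣ) {u : grp θ} (hu : u ∈ uGrp hT)
    (hu1 : u ≠ 1) : principal hT l u = 1 := by
  classical
  have key : ∀ x : grp θ, extendByZero (stabInf θ) (lift hT l) (x⁻¹ * u * x) =
      if x ∈ stabInf θ then 1 else 0 := by
    intro x
    by_cases hx : x⁻¹ * u * x ∈ stabInf θ
    · obtain ⟨e, he⟩ := isPGroup_uGrp hT ⟨u, hu⟩
      have he' : (x⁻¹ * u * x) ^ 2 ^ e = 1 := by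
        have : u ^ 2 ^ e = 1 := congrArg Subtype.val he
        rw [show x⁻¹ * u * x = MulAut.conj x⁻¹ u by simp, ← map_pow, this, map_one]
      obtain ⟨hU, h1⟩ := mem_uGrp_of_odd_part hT (b := ⟨_, hx⟩) he'
      rw [if_pos (mem_stabInf_of_conj hT hu hu1 hU)]
      rw [show extendByZero (stabInf θ) (lift hT l) (x⁻¹ * u * x) = lift hT l ⟨_, hx⟩ from
        Subtype.val_injective.extend_apply _ _ (⟨_, hx⟩ : stabInf θ)]
      rw [lift, h1, map_one, Units.val_one]
    · rw [if_neg fun h => hx (mul_mem (mul_mem (inv_mem h) (uGrp_le_stabInf hT hu)) h)]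
      exact Function.extend_apply' _ _ _ fun ⟨b, hb⟩ => hx (hb ▸ b.2)
  show (Nat.card (stabInf θ) : ℂ)⁻¹ * _ = _
  simp only [key, Finset.sum_boole]
  rw [Nat.card_eq_fintype_card, Fintype.card_subtype]
  refine inv_mul_cancel₀ (Nat.cast_ne_zero.2 (Finset.card_pos.2 ⟨1, ?_⟩).ne')
  exact Finset.mem_filter.2 ⟨Finset.mem_univ _, one_mem _⟩

theorem principal_torus [Fintype (grp θ)] (l : Fˣ →* ℂˣ) {t : Fˣ} (ht : t ≠ 1) :
    principal hT l (tElt hT t) = (l t : ℂ) + (l t⁻¹ : ℂ) := by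
  classical
  have hwne : ∀ x, wElt hT * x ∈ stabInf θ → x ∉ stabInf θ := fun x h hx =>
    wElt_not_mem_stabInf hT ((Subgroup.mul_mem_cancel_right _ hx).1 h)
  have val : ∀ (x : grp θ) (s : Fˣ) (b : grp θ), b ∈ stabInf θ → x⁻¹ * tElt hT t * x = b⁻¹ * tElt hT s * b →
      extendByZero (stabInf θ) (lift hT l) (x⁻¹ * tElt hT t * x) = (l s : ℂ) := by
    intro x s b hb h
    have hm : b⁻¹ * tElt hT s * b ∈ stabInf θ :=
      mul_mem (mul_mem (inv_mem hb) (tElt_mem_stabInf hT s)) hb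
    have e : (⟨b⁻¹ * tElt hT s * b, hm⟩ : stabInf θ) =
        ⟨b, hb⟩⁻¹ * ⟨tElt hT s, tElt_mem_stabInf hT s⟩ * ⟨b, hb⟩ := by
      apply Subtype.ext
      simp only [Subgroup.coe_mul, Subgroup.coe_inv]
    have hπ : torusHom hT ⟨_, hm⟩ = s := by
      rw [e, map_mul, map_mul, map_inv, show torusHom hT ⟨tElt hT s, tElt_mem_stabInf hT s⟩ = s from
        torusPart_eq hT (one_mem _) (one_mul _).symm, inv_mul_cancel_comm]
    rw [h, CfsgLib.Chars.Induced.extendByZero_coe (stabInf θ) (lift hT l) ⟨_, hm⟩, lift, hπ]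
  have key : ∀ x : grp θ, extendByZero (stabInf θ) (lift hT l) (x⁻¹ * tElt hT t * x) =
      (if x ∈ stabInf θ then (l t : ℂ) else 0) + (if wElt hT * x ∈ stabInf θ then (l t⁻¹ : ℂ) else 0) := by
    intro x
    by_cases hx : x ∈ stabInf θ
    · rw [if_pos hx, if_neg fun h => hwne x h hx, add_zero]
      exact val x t x hx rfl
    · by_cases hw : wElt hT * x ∈ stabInf θ
      · rw [if_neg hx, if_pos hw, zero_add]
        refine val x t⁻¹ _ hw ?_
        rw [← wElt_tElt_wElt hT t, mul_inv_rev, inv_eq_of_mul_eq_one_right (wElt_mul_self hT)]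
        simp only [mul_assoc, ← mul_assoc (wElt hT) (wElt hT), wElt_mul_self, one_mul]
      · rw [if_neg hx, if_neg hw, add_zero]
        refine Function.extend_apply' _ _ _ fun ⟨b, hb⟩ => ?_
        have hmem : (x⁻¹ * tElt hT t * x) • (pInf : Projectivization F (Fin 4 → F)) = pInf := by
          rw [← hb]; exact b.2
        rw [mul_smul, mul_smul, inv_smul_eq_iff] at hmem
        rcases fix_tElt hT ht (smul_mem_ovoid x (pInf_mem θ)) hmem with h | h
        · exact hx h
        · refine hw ?_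
          show (wElt hT * x) • (pInf : Projectivization F (Fin 4 → F)) = pInf
          rw [mul_smul, h]
          exact wMat_smul_pt_zero θ
  show (Nat.card (stabInf θ) : ℂ)⁻¹ * _ = _
  simp only [key, Finset.sum_add_distrib]
  rw [← Equiv.sum_comp (Equiv.mulLeft (wElt hT)⁻¹)
    (fun x => if wElt hT * x ∈ stabInf θ then (l t⁻¹ : ℂ) else 0)]
  simp only [Equiv.coe_mulLeft, mul_inv_cancel_left, ← Finset.sum_filter, Finset.sum_const,
    nsmul_eq_mul, ← mul_add]
  rw [Nat.card_eq_fintype_card, Fintype.card_subtype]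
  rw [← mul_assoc, inv_mul_cancel₀, one_mul]
  exact Nat.cast_ne_zero.2 (Finset.card_pos.2 ⟨1, Finset.mem_filter.2 ⟨Finset.mem_univ _, one_mem _⟩⟩).ne'

include hT in
theorem index_stabInf : ((stabInf θ).index : ℕ) = Nat.card F ^ 2 + 1 := by
  rw [MulAction.index_stabilizer, orbit_pInf hT, ncard_ovoid]

theorem principal_one [Fintype (grp θ)] (l : Fˣ →* ℂˣ) :
    principal hT l 1 = (Nat.card F : ℂ) ^ 2 + 1 := by
  rw [principal, CfsgLib.Chars.Induced.indFun_one_apply, index_stabInf hT, lift, map_one, map_one,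
    Units.val_one, mul_one]
  push_cast
  rfl

/-- The inner products of the principal series. -/
theorem classInner_principal [Fintype (grp θ)] (l l' : Fˣ →* ℂˣ) [Decidable (l = l')]
    [Decidable (l⁻¹ = l')] :
    classInner (principal hT l) (principal hT l') =
      (if l = l' then 1 else 0) + (if l⁻¹ = l' then 1 else 0) := by
  classical
  haveI : Fintype Fˣ := Fintype.ofFinite _
  haveI : Fintype (uGrp hT) := Fintype.ofFinite _
  have hcl := CfsgLib.Chars.Induced.indFun_isClassFunction (stabInf θ) (lift hT l)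
  rw [show classInner (principal hT l) (principal hT l') = _ from
    CfsgLib.Chars.Induced.classInner_indFun_right (stabInf θ) (lift hT l') hcl]
  rw [classInner, ← Equiv.sum_comp (borelEquiv hT), Fintype.sum_prod_type]
  simp only [lift, torusHom_borelEquiv]
  have hterm : ∀ (u : uGrp hT) (t : Fˣ), principal hT l (borelEquiv hT (u, t) : grp θ) *
      conj ((l' t : ℂˣ) : ℂ) = ((l t : ℂ) + ((l⁻¹ : Fˣ →* ℂˣ) t : ℂ)) * conj ((l' t : ℂˣ) : ℂ) +
        if t = 1 then (if u = 1 then (Nat.card F : ℂ) ^ 2 + 1 - 2 else -1) else 0 := by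
    intro u t
    rw [show (borelEquiv hT (u, t) : grp θ) = u * tElt hT t from rfl]
    by_cases ht : t = 1
    · subst ht
      rw [if_pos rfl, tElt_one, mul_one]
      by_cases hu : u = 1
      · subst hu
        rw [if_pos rfl, Subgroup.coe_one, principal_one]
        simp
        ring
      · rw [if_neg hu, principal_translation hT l u.2 fun e => hu (Subtype.ext e)]
        simp
    · rw [if_neg ht, add_zero, classFun_coset hT (f := principal hT l) hcl u ht,
        principal_torus hT l ht, MonoidHom.inv_apply, map_inv]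
  have hrw : ∀ u : uGrp hT, ∑ t : Fˣ, principal hT l (borelEquiv hT (u, t) : grp θ) * conj ((l' t : ℂˣ) : ℂ) =
      (Nat.card Fˣ : ℂ) * ((if l = l' then 1 else 0) + (if l⁻¹ = l' then 1 else 0)) +
        (if u = 1 then (Nat.card F : ℂ) ^ 2 + 1 - 2 else -1) := by
    intro u
    simp only [hterm, Finset.sum_add_distrib, add_mul, sum_mul_conj, Finset.sum_ite_eq',
      Finset.mem_univ, if_true]
    congr 1
    split_ifs <;> ring
  simp only [hrw, Finset.sum_add_distrib, Finset.sum_const, Finset.card_univ, nsmul_eq_mul]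
  have hzero : ∑ u : uGrp hT, (if u = 1 then (Nat.card F : ℂ) ^ 2 + 1 - 2 else -1) = 0 := by
    rw [Finset.sum_ite, Finset.sum_const, Finset.sum_const, Finset.filter_eq', if_pos (Finset.mem_univ _),
      Finset.card_singleton, Finset.filter_ne', Finset.card_erase_of_mem (Finset.mem_univ _),
      Finset.card_univ, ← Nat.card_eq_fintype_card, card_uGrp, nsmul_eq_mul, nsmul_eq_mul,
      Nat.cast_sub (Nat.one_le_pow _ _ Nat.card_pos)]
    push_cast
    ring
  rw [hzero, add_zero, ← Nat.card_eq_fintype_card, card_stabInf hT, card_uGrp, ← Nat.card_units]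
  have h1 : (Nat.card F : ℂ) ≠ 0 := Nat.cast_ne_zero.2 Nat.card_pos.ne'
  have h2 : (Nat.card Fˣ : ℂ) ≠ 0 := Nat.cast_ne_zero.2 Nat.card_pos.ne'
  push_cast
  field_simp

/-- An irreducible character without translation-fixed vectors vanishes on the torus. -/
theorem cuspidal_facts [Fintype (grp θ)] [Fintype (uGrp hT)] (χ : IrrCharacter (grp θ))
    (h : ∀ l : Fˣ →* ℂˣ, classInner (χ : grp θ → ℂ) (principal hT l) = 0) :
    (∀ t : Fˣ, t ≠ 1 → (χ : grp θ → ℂ) (tElt hT t) = 0) ∧
      ∑ u : uGrp hT, (χ : grp θ → ℂ) u = 0 := by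
  classical
  haveI : Fintype Fˣ := Fintype.ofFinite _
  haveI : Fintype (Fˣ →* ℂˣ) := Fintype.ofFinite _
  let S : Fˣ → ℂ := fun t => ∑ u : uGrp hT, (χ : grp θ → ℂ) (u * tElt hT t)
  have h1 : ∀ l : Fˣ →* ℂˣ, ∑ t : Fˣ, S t * ((l⁻¹ t : ℂˣ) : ℂ) = 0 := by
    intro l
    have h2 := h l
    rw [principal, CfsgLib.Chars.Induced.classInner_indFun_right (stabInf θ) (lift hT l)
      (isClassFunction_coe χ), classInner, mul_eq_zero] at h2
    have h3 := h2.resolve_left (inv_ne_zero (Nat.cast_ne_zero.2 Nat.card_pos.ne'))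
    rw [← Equiv.sum_comp (borelEquiv hT), Fintype.sum_prod_type, Finset.sum_comm] at h3
    rw [← h3]
    refine Finset.sum_congr rfl fun t _ => ?_
    rw [Finset.sum_mul]
    refine Finset.sum_congr rfl fun u _ => ?_
    simp only [lift, torusHom_borelEquiv]
    rw [conj_hom, MonoidHom.inv_apply]
    rfl
  have hS : ∀ s, S s = 0 := by
    intro s
    have h2 : ∑ l : Fˣ →* ℂˣ, ((l s : ℂˣ) : ℂ) * ∑ t : Fˣ, S t * ((l⁻¹ t : ℂˣ) : ℂ) = 0 := by
      exact Finset.sum_eq_zero fun l _ => by rw [h1, mul_zero]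
    simp only [Finset.mul_sum] at h2
    rw [Finset.sum_comm] at h2
    have h3 : ∀ t : Fˣ, ∑ l : Fˣ →* ℂˣ, ((l s : ℂˣ) : ℂ) * (S t * ((l⁻¹ t : ℂˣ) : ℂ)) =
        S t * if s * t⁻¹ = 1 then (Nat.card Fˣ : ℂ) else 0 := by
      intro t
      rw [← sum_hom_apply, Finset.mul_sum]
      refine Finset.sum_congr rfl fun l _ => ?_
      rw [MonoidHom.inv_apply, map_mul, map_inv, Units.val_mul]
      ring
    simp only [h3, mul_inv_eq_one, mul_ite, mul_zero, Finset.sum_ite_eq, Finset.mem_univ, if_true] at h2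
    exact (mul_eq_zero.1 h2).resolve_right (Nat.cast_ne_zero.2 Nat.card_pos.ne')
  refine ⟨fun t ht => ?_, ?_⟩
  · have h2 := hS t
    simp only [S, classFun_coset hT (isClassFunction_coe χ) _ ht, Finset.sum_const, nsmul_eq_mul,
      mul_eq_zero] at h2
    refine h2.resolve_left (Nat.cast_ne_zero.2 ?_)
    exact Finset.card_ne_zero.2 ⟨1, Finset.mem_univ _⟩
  · simpa [S, tElt_one] using hS 1

end CfsgLib.SuzukiDeg
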