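import Cfsg.Agent.Suzuki.Chars.Split
import Cfsg.Agent.Suzuki.Kinds
import Cfsg.Agent.Suzuki.MinDegree

/-!
The degrees of the irreducible characters of the Suzuki group: classification and existence.
-/

set_option autoImplicit false

open Cfsg
open scoped ComplexConjugate

namespace CfsgLib.SuzukiDeg

open CfsgLib.Suzuki CfsgLib.Chars

/-- The kind of a degree. -/
def Kindly (s : ℤ) (d : ℤ) : Fin 7 → Prop := ![
  d = 1, d = (2 * s ^ 2) ^ 2, d = (2 * s ^ 2) ^ 2 + 1, d = (2 * s ^ 2 - 1) * (2 * s ^ 2 + 2 * s + 1),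
  d = (2 * s ^ 2 - 1) * (2 * s ^ 2 - 2 * s + 1), s = 2 ∧ d = 105, d = (2 * s ^ 2 - 1) * s]

section Principal

variable {F : Type*} [Field F] [CharP F 2] [Finite F] {θ : F →+* F} (hT : TitsEndo θ)
  [Fintype (grp θ)]

include hT in
theorem inv_ne_self {l : Fˣ →* ℂˣ} (h : l ≠ 1) : l⁻¹ ≠ l := by
  intro e
  refine h (MonoidHom.ext fun t => ?_)
  have h2 : l t ^ 2 = 1 := by
    have e' : (l t)⁻¹ = l t := by
      have := DFunLike.congr_fun e t
      rwa [MonoidHom.inv_apply] at this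
    rw [pow_two]
    nth_rw 1 [← e']
    exact inv_mul_cancel _
  have h3 : l t ^ Nat.card Fˣ = 1 := by rw [← map_pow, pow_card_eq_one', map_one]
  have h4 : l t ^ Nat.gcd 2 (Nat.card Fˣ) = 1 := pow_gcd_eq_one.2 ⟨h2, h3⟩
  rwa [show Nat.gcd 2 (Nat.card Fˣ) = 1 from Nat.coprime_two_left.2 (odd_card_units hT), pow_one] at h4

theorem principal_irr {l : Fˣ →* ℂˣ} (h : l ≠ 1) : IsIrrCharacter (grp θ) (principal hT l) := by
  classical
  refine isIrrCharacter_iff.2 ⟨isCharacter_principal hT l, ?_⟩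
  rw [classInner_principal, if_pos rfl, if_neg (inv_ne_self hT h), add_zero]

theorem classInner_principal_one [Fintype (stabInf θ)] :
    classInner (principal hT 1) (oneChar (grp θ) : grp θ → ℂ) = 1 := by
  rw [principal, CfsgLib.Chars.Induced.classInner_indFun (stabInf θ) _ (isClassFunction_coe _), classInner]
  simp only [lift, MonoidHom.one_apply, Units.val_one, oneChar_apply, map_one, mul_one,
    Finset.sum_const, Finset.card_univ, ← Nat.card_eq_fintype_card, nsmul_eq_mul]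
  exact inv_mul_cancel₀ (Nat.cast_ne_zero.2 Nat.card_pos.ne')

/-- The Steinberg character of the Suzuki group. -/
theorem exists_steinberg : ∃ st : IrrCharacter (grp θ),
    principal hT 1 = (oneChar (grp θ) : grp θ → ℂ) + (st : grp θ → ℂ) ∧
    (charDegree (st : grp θ → ℂ) : ℤ) = (Nat.card F : ℤ) ^ 2 := by
  classical
  obtain ⟨φ, hφ, hsum⟩ := exists_add_of_classInner_ne_zero (isCharacter_principal hT 1) (oneChar (grp θ))
    (by rw [classInner_principal_one hT]; exact one_ne_zero)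
  set P := principal hT 1 with hP
  set o := (oneChar (grp θ) : grp θ → ℂ) with ho
  have h1 : classInner P P = 2 := by
    rw [hP, classInner_principal, if_pos rfl, if_pos]
    · norm_num
    · exact MonoidHom.ext fun t => by rw [MonoidHom.inv_apply]; simp
  have h2 : classInner P o = 1 := classInner_principal_one hT
  have hoo : classInner o o = 1 := classInner_self _
  rw [hsum, classInner_add_left, hoo] at h2
  have hφo : classInner φ o = 0 := by linear_combination h2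
  have hoφ : classInner o φ = 0 := by rw [← classInner_conj_symm, hφo, map_zero]
  rw [hsum, classInner_add_left] at h1
  have e1 : ∀ f : grp θ → ℂ, classInner f (o + φ) = classInner f o + classInner f φ := fun f => by
    simp [classInner, mul_add, Finset.sum_add_distrib]
  rw [e1, e1, hoo, hoφ, hφo] at h1
  have hφφ : classInner φ φ = 1 := by linear_combination h1
  have hirr : IsIrrCharacter (grp θ) φ := isIrrCharacter_iff.2 ⟨hφ, hφφ⟩
  refine ⟨⟨φ, hirr⟩, hsum, ?_⟩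
  have hd : φ 1 = (Nat.card F : ℂ) ^ 2 := by
    have h := congrFun hsum 1
    rw [hP, principal_one, Pi.add_apply, ho, oneChar_apply] at h
    linear_combination -h
  have : charDegree φ = Nat.card F ^ 2 := charDegree_eq_of_map_one (by rw [hd]; push_cast; rfl)
  show (charDegree φ : ℤ) = _
  rw [this]; push_cast; rfl

theorem noncuspidal_cases {st : IrrCharacter (grp θ)}
    (hst : principal hT 1 = (oneChar (grp θ) : grp θ → ℂ) + (st : grp θ → ℂ))
    (χ : IrrCharacter (grp θ)) {l : Fˣ →* ℂˣ}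
    (hl : classInner (χ : grp θ → ℂ) (principal hT l) ≠ 0) :
    (χ = oneChar (grp θ) ∨ χ = st) ∨ (l ≠ 1 ∧ (χ : grp θ → ℂ) = principal hT l) := by
  classical
  by_cases h : l = 1
  · subst h
    refine Or.inl ?_
    by_contra hc
    push Not at hc
    refine hl ?_
    rw [hst, ← classInner_conj_symm, classInner_add_left, classInner_of_ne (Ne.symm hc.1),
      classInner_of_ne (Ne.symm hc.2), add_zero, map_zero]
  · refine Or.inr ⟨h, ?_⟩
    by_contra hne
    exact hl (classInner_of_ne (χ := χ) (ψ := ⟨_, principal_irr hT h⟩) fun e => hne (congrArg Subtype.val e))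

theorem card_principal_le [Fintype (Fˣ →* ℂˣ)] (S : Finset (IrrCharacter (grp θ)))
    (hS : ∀ χ ∈ S, ∃ l : Fˣ →* ℂˣ, l ≠ 1 ∧ (χ : grp θ → ℂ) = principal hT l) :
    2 * S.card + 2 ≤ Nat.card F := by
  classical
  choose l hl1 hl using hS
  have hmem : ∀ x ∈ (S.attach ×ˢ (Finset.univ : Finset Bool)),
      (if x.2 then l x.1 x.1.2 else (l x.1 x.1.2)⁻¹) ∈ Finset.univ.erase (1 : Fˣ →* ℂˣ) := by
    intro x _
    refine Finset.mem_erase.2 ⟨?_, Finset.mem_univ _⟩
    split_ifs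
    · exact hl1 _ _
    · exact fun e => hl1 _ x.1.2 (MonoidHom.ext fun t => by
        have := DFunLike.congr_fun e t
        rw [MonoidHom.inv_apply, MonoidHom.one_apply, inv_eq_one] at this
        exact this)
  have key : ∀ (x y : IrrCharacter (grp θ)) (hx : x ∈ S) (hy : y ∈ S),
      (l x hx = l y hy ∨ (l x hx)⁻¹ = l y hy) → x = y := by
    intro x y hx hy h
    by_contra hne
    have h0 := classInner_of_ne hne
    rw [hl x hx, hl y hy, classInner_principal] at h0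
    rcases h with h | h
    · rw [if_pos h] at h0
      split_ifs at h0 <;> norm_num at h0
    · rw [if_pos h] at h0
      split_ifs at h0 <;> norm_num at h0
  have h := Finset.card_le_card_of_injOn (fun x : {χ // χ ∈ S} × Bool => if x.2 then l x.1 x.1.2 else (l x.1 x.1.2)⁻¹)
    (s := S.attach ×ˢ (Finset.univ : Finset Bool)) (t := Finset.univ.erase (1 : Fˣ →* ℂˣ))
    (fun x hx => hmem x hx)
    (by
      rintro ⟨⟨x, hx⟩, b⟩ - ⟨⟨y, hy⟩, b'⟩ - h
      cases b <;> cases b' <;> simp only [if_true, Bool.false_eq_true, if_false] at h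
      · obtain rfl := key x y hx hy (Or.inl (inv_inj.1 h)); rfl
      · obtain rfl := key x y hx hy (Or.inr h); exact absurd h (inv_ne_self hT (hl1 _ _))
      · obtain rfl := key y x hy hx (Or.inr h.symm); exact absurd h.symm (inv_ne_self hT (hl1 _ _))
      · obtain rfl := key x y hx hy (Or.inl h); rfl)
  rw [Finset.card_product, Finset.card_attach, Finset.card_univ, Fintype.card_bool,
    Finset.card_erase_of_mem (Finset.mem_univ _), Finset.card_univ, ← Nat.card_eq_fintype_card,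
    card_monoidHom_units, (commutator_eq_bot_iff_center_eq_top _).2 CommGroup.center_eq_top,
    Subgroup.index_bot, Nat.card_units] at h
  have := Finite.one_lt_card (α := F)
  omega

end Principal

section Main

variable {F : Type*} [Field F] [Fintype F] [CharP F 2] {m : ℕ}

theorem tori_data (hm : 1 ≤ m) (hF : Fintype.card F = 2 ^ (2 * m + 1)) [Fintype (grp (theta F m))] :
    ∃ P M : Subgroup (grp (theta F m)),
      Torus P (2 * (2 ^ m) ^ 2 + 2 * 2 ^ m + 1) ∧ Torus M (2 * (2 ^ m) ^ 2 + 1 - 2 * 2 ^ m) := by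
  obtain ⟨P, M, ⟨-, hPk, hPC, hPN⟩, ⟨-, hMk, hMC, hMN⟩, -⟩ := exists_partition hm hF
  have e1 : 2 ^ (2 * m + 1) = 2 * (2 ^ m) ^ 2 := by ring
  have e2 : 2 ^ (m + 1) = 2 * 2 ^ m := by ring
  have hle : 2 * 2 ^ m ≤ 2 * (2 ^ m) ^ 2 := Nat.mul_le_mul_left 2 (Nat.le_self_pow two_ne_zero _)
  rw [e1, e2] at hPk hMk
  refine ⟨P, M, ⟨hPk, hPC, by rw [hPN, hPk]⟩, ⟨by rw [hMk]; omega, hMC, by rw [hMN, hMk]; omega⟩⟩

/-- The degrees of a cuspidal character and the lower bounds on its profiles. -/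
theorem cuspidal_kind {s : ℕ} (hs : s = 2 ∨ 4 ≤ s) (hsm : s = 2 ^ m) {k d : ℕ} {Yp Ym : ℤ}
    (hk : (d : ℤ) = (2 * (s : ℤ) ^ 2 - 1) * k) (hk1 : (s : ℤ) ≤ k)
    (hdvd : k ∣ (2 * s ^ 2) ^ 2 * ((2 * s ^ 2) ^ 2 + 1))
    (hPp : Prof (2 * (s : ℤ) ^ 2 + 2 * s + 1) d Yp) (hPm : Prof (2 * (s : ℤ) ^ 2 - 2 * s + 1) d Ym)
    (hYp : 0 ≤ Yp) (hYm : 0 ≤ Ym)
    (hb : 2 * (k : ℤ) ^ 2 + (2 * (s : ℤ) ^ 2 + 1) * (Yp * (2 * (s : ℤ) ^ 2 - 2 * s + 1) +
      Ym * (2 * (s : ℤ) ^ 2 + 2 * s + 1)) ≤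
      (2 * (s : ℤ) ^ 2 + 1) * ((2 * (s : ℤ) ^ 2 + 2 * s + 1) * (2 * (s : ℤ) ^ 2 - 2 * s + 1)))
    (hcp : IsCoprime (2 * (s : ℤ) ^ 2 - 1) (2 * (s : ℤ) ^ 2 + 2 * s + 1))
    (hcm : IsCoprime (2 * (s : ℤ) ^ 2 - 1) (2 * (s : ℤ) ^ 2 - 2 * s + 1)) :
    ∃ i : Fin 7, Kindly s d i ∧ (i = 3 ∨ i = 4 ∨ i = 5 ∨ i = 6) := by
  set p : ℤ := 2 * (s : ℤ) ^ 2 + 2 * s + 1 with hp
  set n : ℤ := 2 * (s : ℤ) ^ 2 - 2 * s + 1 with hn
  have hs2 : (2 : ℤ) ≤ s := by omega
  have hsZ : (s : ℤ) = 2 ∨ 4 ≤ (s : ℤ) := by omega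
  have hn5 : 5 ≤ n := by nlinarith
  have hp5 : 5 ≤ p := by nlinarith
  have hk0 : (1 : ℤ) ≤ k := by omega
  have hq : (0 : ℤ) < 2 * (s : ℤ) ^ 2 + 1 := by positivity
  have hYpp : Yp < p := by
    by_contra hc
    push Not at hc
    have h1 : p * n ≤ Yp * n := mul_le_mul_of_nonneg_right hc (by linarith)
    have h2 : 0 ≤ Ym * p := mul_nonneg hYm (by linarith)
    nlinarith
  have hYmn : Ym < n := by
    by_contra hc
    push Not at hc
    have h1 : n * p ≤ Ym * p := mul_le_mul_of_nonneg_right hc (by linarith)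
    have h2 : 0 ≤ Yp * n := mul_nonneg hYp (by linarith)
    nlinarith
  by_cases hr : ∃ r : ℕ, r.Prime ∧ r ≠ 2 ∧ r ∣ k
  · obtain ⟨r, hr, hr2, hrk⟩ := hr
    have hr' : Prime (r : ℤ) := Nat.prime_iff_prime_int.1 hr
    have hrq : r ∣ (2 * s ^ 2) ^ 2 + 1 := by
      rcases hr.dvd_mul.1 (hrk.trans hdvd) with h | h
      · exfalso
        have := hr.dvd_of_dvd_pow h
        rw [hsm, ← pow_mul, ← pow_succ'] at this
        exact hr2 ((Nat.prime_dvd_prime_iff_eq hr Nat.prime_two).1 (hr.dvd_of_dvd_pow this))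
      · exact h
    have hr5 : 5 ≤ r := by
      have h3 : r ≠ 3 := by
        rintro rfl
        have : ∀ x : ZMod 3, (2 * x ^ 2) ^ 2 + 1 ≠ 0 := by decide
        refine this (s : ZMod 3) ?_
        have := (ZMod.natCast_eq_zero_iff ((2 * s ^ 2) ^ 2 + 1) 3).2 hrq
        push_cast at this
        exact this
      have h4 : r ≠ 4 := by rintro rfl; norm_num at hr
      have := hr.two_le
      omega
    have hrd : (r : ℤ) ∣ (d : ℤ) := hk ▸ (Int.natCast_dvd_natCast.2 hrk).mul_left _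
    have hrpn : (r : ℤ) ∣ p * n := by
      have : (r : ℤ) ∣ (((2 * s ^ 2) ^ 2 + 1 : ℕ) : ℤ) := Int.natCast_dvd_natCast.2 hrq
      push_cast at this
      rwa [show p * n = (2 * (s : ℤ) ^ 2) ^ 2 + 1 by rw [hp, hn]; ring]
    rcases hr'.dvd_or_dvd hrpn with h | h
    · have hpd := hPp.dvd_of_prime hp5 hYpp hr hr5 h hrd
      obtain ⟨j, hj⟩ := hcp.symm.dvd_of_dvd_mul_left (hk ▸ hpd)
      have hj1 : 1 ≤ j := by nlinarith
      have hb' : 2 * p * j ^ 2 + (2 * (s : ℤ) ^ 2 + 1) * Ym ≤ (2 * (s : ℤ) ^ 2 + 1) * n := by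
        refine le_of_mul_le_mul_left ?_ (by linarith : (0 : ℤ) < p)
        have h2 : 0 ≤ (2 * (s : ℤ) ^ 2 + 1) * (Yp * n) := mul_nonneg hq.le (mul_nonneg hYp (by linarith))
        rw [hj] at hb
        linarith
      have hd4 : n ∣ (d : ℤ) + 4 * j := ⟨(2 * (s : ℤ) ^ 2 + 4 * s + 3) * j, by
        rw [hk, hj, hp, hn]; ring⟩
      rcases torus_multiple hsZ (Or.inl ⟨hp, hn⟩) hj1 hYm hb' hPm hd4 with rfl | ⟨hs', hp', -⟩
      · exact ⟨3, by show (d : ℤ) = _; rw [hk, hj, mul_one], by simp⟩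
      · exfalso; rw [hp, hs'] at hp'; norm_num at hp'
    · have hnd := hPm.dvd_of_prime hn5 hYmn hr hr5 h hrd
      obtain ⟨j, hj⟩ := hcm.symm.dvd_of_dvd_mul_left (hk ▸ hnd)
      have hj1 : 1 ≤ j := by nlinarith
      have hb' : 2 * n * j ^ 2 + (2 * (s : ℤ) ^ 2 + 1) * Yp ≤ (2 * (s : ℤ) ^ 2 + 1) * p := by
        refine le_of_mul_le_mul_left ?_ (by linarith : (0 : ℤ) < n)
        have h2 : 0 ≤ (2 * (s : ℤ) ^ 2 + 1) * (Ym * p) := mul_nonneg hq.le (mul_nonneg hYm (by linarith))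
        rw [hj] at hb
        linarith
      have hd4 : p ∣ (d : ℤ) + 4 * j := ⟨(2 * (s : ℤ) ^ 2 - 4 * s + 3) * j, by
        rw [hk, hj, hp, hn]; ring⟩
      rcases torus_multiple hsZ (Or.inr ⟨hn, hp⟩) hj1 hYp hb' hPp hd4 with rfl | ⟨hs', hn', rfl⟩
      · exact ⟨4, by show (d : ℤ) = _; rw [hk, hj, mul_one], by simp⟩
      · exact ⟨5, ⟨hs', by rw [hk, hj, hn', hs']; norm_num⟩, by simp⟩
  · push Not at hr
    have hk' : k = 2 ^ k.primeFactorsList.length := by
      refine Nat.eq_prime_pow_of_unique_prime_dvd (by omega) fun {r} hrp hrk => ?_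
      by_contra hne
      exact hr r hrp hne hrk
    set e := k.primeFactorsList.length
    have hme : m ≤ e := by
      refine (Nat.pow_le_pow_iff_right one_lt_two).1 ?_
      rw [← hk', ← hsm]; omega
    obtain ⟨f, hf⟩ := Nat.le.dest hme
    have hkt : (k : ℤ) = (s : ℤ) * 2 ^ f := by
      rw [hk', ← hf, hsm]; push_cast; ring
    set t : ℤ := 2 ^ f with ht
    have ht' : t = 1 ∨ t = 2 ∨ (4 ≤ t ∧ t % 4 = 0) := by
      rcases f with _ | _ | f
      · left; simp [ht]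
      · right; left; simp [ht]
      · right; right
        have : t = 4 * 2 ^ f := by rw [ht]; ring
        have : (0 : ℤ) < 2 ^ f := by positivity
        omega
    have htb : t ≤ 2 * (s : ℤ) ^ 2 := by
      have hfb : f ≤ 2 * m + 1 := by
        by_contra hc
        push Not at hc
        have h1 : (2 : ℤ) ^ (2 * m + 2) ≤ t := pow_le_pow_right₀ (by norm_num) hc
        have h2 : (2 : ℤ) ^ (2 * m + 2) = 4 * (s : ℤ) ^ 2 := by rw [hsm]; push_cast; ring
        rw [h2] at h1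
        rw [hkt] at hb
        have h3 : (s : ℤ) ^ 2 * (4 * (s : ℤ) ^ 2) ^ 2 ≤ ((s : ℤ) * t) ^ 2 := by
          rw [mul_pow (s : ℤ) t 2]; exact mul_le_mul_of_nonneg_left (pow_le_pow_left₀ (mul_nonneg (by norm_num) (sq_nonneg _)) h1 2) (sq_nonneg _)
        have h4 : 0 ≤ (2 * (s : ℤ) ^ 2 + 1) * (Yp * n + Ym * p) :=
          mul_nonneg hq.le (add_nonneg (mul_nonneg hYp (by linarith)) (mul_nonneg hYm (by linarith)))
        rw [hp, hn] at hb h4
        nlinarith
      calc t ≤ (2 : ℤ) ^ (2 * m + 1) := pow_le_pow_right₀ (by norm_num) hfb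
        _ = _ := by rw [hsm]; push_cast; ring
    have hdp : p ∣ (d : ℤ) - t := ⟨((s : ℤ) - 1) * t, by rw [hk, hkt, hp]; ring⟩
    have hnd : ¬ n ∣ (d : ℤ) := by
      intro h
      rw [hk, hk'] at h
      have h2 := hcm.symm.dvd_of_dvd_mul_left h
      push_cast at h2
      obtain ⟨i, -, hi⟩ := (dvd_prime_pow (Nat.prime_iff_prime_int.1 Nat.prime_two) _).1 h2
      have hn' : n.natAbs = 2 ^ i := by
        rw [Int.associated_iff_natAbs.1 hi, Int.natAbs_pow]; rfl
      have hodd : n % 2 = 1 := by rw [hn]; omega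
      rcases i with _ | i
      · simp at hn'; omega
      · rw [pow_succ'] at hn'; omega
    rw [hkt] at hb
    have := two_power hsZ ht' htb hdp hPp (hPm.lower hn5 hnd) hYp hb
    refine ⟨6, ?_, by simp⟩
    show (d : ℤ) = _
    rw [hk, hkt, this, mul_one]

end Main

end CfsgLib.SuzukiDeg
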