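import Cfsg.Agent.Chars.Basic
import Cfsg.Agent.Eq.Def_Characters
import Mathlib

/-!
Character values on a self-centralising abelian subgroup with normaliser index four, in integers: the
multiplicities of the linear characters relative to that of the trivial one, grouped in orbits.
-/

set_option autoImplicit false

open Cfsg
open scoped ComplexConjugate

namespace CfsgLib.SuzukiDeg

open CfsgLib.Chars

universe u

variable {G : Type u} [Group G] [Fintype G]

/-- The square sum of the values of `f` on the non-trivial elements of `A`. -/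
noncomputable def offSum (A : Subgroup G) (f : G → ℂ) : ℝ :=
  (∑ᶠ g : A, ‖f g‖ ^ 2) - ‖f 1‖ ^ 2

theorem offSum_eq (A : Subgroup G) [Fintype A] (f : G → ℂ) :
    offSum A f = (∑ g : A, ‖f g‖ ^ 2) - ‖f 1‖ ^ 2 := by
  rw [offSum, finsum_eq_sum_of_fintype]

theorem offSum_nonneg (A : Subgroup G) (f : G → ℂ) : 0 ≤ offSum A f := by
  classical
  rw [offSum_eq, sub_nonneg]
  have h : ‖f ((1 : A) : G)‖ ^ 2 ≤ ∑ g : A, ‖f g‖ ^ 2 :=
    Finset.single_le_sum (f := fun g : A => ‖f g‖ ^ 2) (fun g _ => sq_nonneg _) (Finset.mem_univ _)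
  simpa using h

/-- A self-centralising subgroup of index four in its normaliser. -/
structure Torus (A : Subgroup G) (a : ℕ) : Prop where
  card : Nat.card A = a
  cent : ∀ u ∈ A, u ≠ 1 → Subgroup.centralizer {u} = A
  card_normalizer : Nat.card (Subgroup.normalizer (A : Set G)) = 4 * a

theorem Torus.comm {A : Subgroup G} {a : ℕ} (h : Torus A a) : IsMulCommutative A := by
  refine ⟨⟨fun x y => Subtype.ext ?_⟩⟩
  by_cases hx : (x : G) = 1
  · simp [hx]
  · have hy : (y : G) ∈ Subgroup.centralizer {(x : G)} := by rw [h.cent _ x.2 hx]; exact y.2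
    exact (Subgroup.mem_centralizer_singleton_iff.1 hy).symm

section Orbits

variable (A : Subgroup G)

/-- Conjugation by an element of the normaliser, on the subgroup. -/
def normConj (n : Subgroup.normalizer (A : Set G)) : A ≃* A where
  toFun x := ⟨(n : G)⁻¹ * x * n, by
    have h := (Subgroup.mem_normalizer_iff.1 (inv_mem n.2) (x : G)).1 x.2
    rwa [inv_inv] at h⟩
  invFun x := ⟨(n : G) * x * (n : G)⁻¹, (Subgroup.mem_normalizer_iff.1 n.2 (x : G)).1 x.2⟩
  left_inv x := Subtype.ext (by simp [mul_assoc])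
  right_inv x := Subtype.ext (by simp [mul_assoc])
  map_mul' x y := Subtype.ext (by simp [mul_assoc])

theorem coe_normConj (n : Subgroup.normalizer (A : Set G)) (x : A) :
    (normConj A n x : G) = (n : G)⁻¹ * x * n := rfl

/-- The non-trivial irreducible characters of the subgroup. -/
abbrev NonOne : Type u := {μ : IrrCharacter A // μ ≠ oneChar A}

noncomputable instance instMulActionNonOne :
    MulAction (Subgroup.normalizer (A : Set G)) (NonOne A) where
  smul n μ := ⟨⟨fun x => (μ.1 : A → ℂ) (normConj A n x), isIrrCharacter_comp_mulEquiv μ.1.2 _⟩,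
    fun h => μ.2 (Subtype.ext (funext fun x => by
      have := congrFun (congrArg Subtype.val h) ((normConj A n).symm x)
      simpa using this))⟩
  one_smul μ := by
    refine Subtype.ext (Subtype.ext (funext fun x => ?_))
    show (μ.1 : A → ℂ) (normConj A 1 x) = _
    rw [show normConj A 1 x = x from Subtype.ext (by simp [coe_normConj])]
  mul_smul n n' μ := by
    refine Subtype.ext (Subtype.ext (funext fun x => ?_))
    show (μ.1 : A → ℂ) (normConj A (n * n') x) = (μ.1 : A → ℂ) (normConj A n' (normConj A n x))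
    rw [show normConj A (n * n') x = normConj A n' (normConj A n x) from
      Subtype.ext (by simp [coe_normConj, mul_assoc])]

theorem smul_nonOne_apply (n : Subgroup.normalizer (A : Set G)) (μ : NonOne A) (x : A) :
    ((n • μ).1 : A → ℂ) x = (μ.1 : A → ℂ) (normConj A n x) := rfl

theorem card_stabilizer_nonOne {a : ℕ} (h : Torus A a) (μ : NonOne A) :
    Nat.card (MulAction.stabilizer (Subgroup.normalizer (A : Set G)) μ) = a := by
  classical
  haveI := h.comm
  obtain ⟨l, hl⟩ := exists_linChar_eq μ.1 (map_one_eq_one_of_isMulCommutative _)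
  have hkey : ∀ n : Subgroup.normalizer (A : Set G), n • μ = μ ↔ (n : G) ∈ A := by
    intro n
    constructor
    · intro hn
      by_contra hnA
      letI : CommGroup A := { (inferInstance : Group A) with mul_comm := mul_comm' }
      let φ : A →* A := MonoidHom.mk' (fun x => normConj A n x * x⁻¹) fun x y => by
        rw [map_mul, mul_inv, mul_mul_mul_comm]
      have hinj : Function.Injective φ := by
        rw [injective_iff_map_eq_one]
        intro x hx
        by_contra hx1
        have e : normConj A n x = x := mul_inv_eq_one.1 hx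
        have e' : (n : G)⁻¹ * x * n = x := by rw [← coe_normConj, e]
        refine hnA ?_
        refine (h.cent _ x.2 fun e => hx1 (Subtype.ext e)).le ?_
        rw [Subgroup.mem_centralizer_singleton_iff]
        calc (n : G) * x = n * ((n : G)⁻¹ * x * n) := by rw [e']
          _ = x * n := by group
      have hsurj := (Finite.injective_iff_surjective.1 hinj)
      refine μ.2 (Subtype.ext (funext fun y => ?_))
      obtain ⟨x, rfl⟩ := hsurj y
      have h1 : (l (normConj A n x) : ℂ) = l x := by
        rw [← linChar_apply, ← linChar_apply, hl, ← smul_nonOne_apply, hn]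
      rw [← hl, linChar_apply, show φ x = normConj A n x * x⁻¹ from rfl, map_mul, map_inv,
        Units.ext h1, mul_inv_cancel, oneChar_apply, Units.val_one]
    · intro hn
      refine Subtype.ext (Subtype.ext (funext fun x => ?_))
      rw [smul_nonOne_apply]
      refine congrArg _ (Subtype.ext ?_)
      rw [coe_normConj]
      have := congrArg Subtype.val (mul_comm' x (⟨n, hn⟩ : A))
      simp only [Subgroup.coe_mul] at this
      rw [mul_assoc, this, inv_mul_cancel_left]
  have hst : MulAction.stabilizer (Subgroup.normalizer (A : Set G)) μ =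
      A.subgroupOf (Subgroup.normalizer (A : Set G)) := by
    ext n
    rw [MulAction.mem_stabilizer_iff, hkey, Subgroup.mem_subgroupOf]
  rw [hst, Nat.card_congr (Subgroup.subgroupOfEquivOfLe Subgroup.le_normalizer).toEquiv, h.card]

end Orbits

/-- The profile of an irreducible character on a torus. -/
theorem exists_profile {A : Subgroup G} {a : ℕ} (h : Torus A a) (χ : IrrCharacter G) :
    ∃ (n : ℕ) (c : Fin n → ℤ), a = 4 * n + 1 ∧
      (a : ℤ) ∣ (charDegree (χ : G → ℂ) : ℤ) - 4 * ∑ i, c i ∧
      offSum A (χ : G → ℂ) = 4 * (((a : ℤ) * ∑ i, c i ^ 2 - 4 * (∑ i, c i) ^ 2 : ℤ) : ℝ) := by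
  classical
  haveI := h.comm
  let f : A → ℂ := fun x => (χ : G → ℂ) x
  obtain ⟨m, -, hm⟩ := exists_nat_coeff (isCharacter_restrict (isCharacter_coe χ) A)
  have hlin : ∀ μ : IrrCharacter A, (μ : A → ℂ) 1 = 1 := map_one_eq_one_of_isMulCommutative
  have hcardI : Fintype.card (IrrCharacter A) = a := by
    have e2 := sum_charDegree_sq (G := A)
    simp only [fun μ : IrrCharacter A => (charDegree_eq_one_iff μ).2 (hlin μ), one_pow,
      Finset.sum_const, Finset.card_univ, smul_eq_mul, mul_one, h.card] at e2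
    exact e2
  have hdeg : ((charDegree (χ : G → ℂ) : ℤ) : ℂ) = ∑ μ : IrrCharacter A, ((m μ : ℤ) : ℂ) := by
    push_cast
    rw [coe_charDegree, show (χ : G → ℂ) (1 : G) = f (1 : A) from by simp [f],
      show f 1 = _ from congrFun (eq_sum_classInner_smul (isClassFunction_of_isCharacter
        (isCharacter_restrict (isCharacter_coe χ) A))) 1]
    simp only [Finset.sum_apply, Pi.smul_apply, smul_eq_mul, hlin, mul_one]
    exact Finset.sum_congr rfl fun μ _ => hm μ
  have hdegZ : (charDegree (χ : G → ℂ) : ℤ) = ∑ μ : IrrCharacter A, (m μ : ℤ) := by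
    exact_mod_cast hdeg
  have hnorm : ∑ g : A, ‖f g‖ ^ 2 = (a : ℝ) * ∑ μ : IrrCharacter A, ((m μ : ℤ) : ℝ) ^ 2 := by
    have h1 : classInner f f = ∑ μ : IrrCharacter A, classInner f (μ : A → ℂ) * conj (classInner f (μ : A → ℂ)) :=
      classInner_eq_sum (isClassFunction_of_isCharacter (isCharacter_restrict (isCharacter_coe χ) A)) f
    simp only [show ∀ μ : IrrCharacter A, classInner f (μ : A → ℂ) = (m μ : ℂ) from hm,
      Complex.conj_natCast] at h1
    have h2 : classInner f f = (((a : ℝ)⁻¹ * ∑ g : A, ‖f g‖ ^ 2 : ℝ) : ℂ) := by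
      rw [classInner, h.card]
      push_cast
      simp only [Complex.mul_conj']
    rw [h2] at h1
    have h3 : (a : ℝ)⁻¹ * ∑ g : A, ‖f g‖ ^ 2 = ∑ μ : IrrCharacter A, (m μ : ℝ) * (m μ : ℝ) := by
      exact_mod_cast h1
    have ha : (a : ℝ) ≠ 0 := by
      rw [← h.card]; exact Nat.cast_ne_zero.2 Nat.card_pos.ne'
    field_simp at h3
    rw [h3]
    push_cast
    simp only [sq]
  -- orbits
  let Ω : Type u := Quotient (MulAction.orbitRel (Subgroup.normalizer (A : Set G)) (NonOne A))
  haveI : Fintype Ω := Fintype.ofFinite Ω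
  let rep : Ω → NonOne A := Quotient.out
  have horb : ∀ o : Ω, Fintype.card (MulAction.orbit (Subgroup.normalizer (A : Set G)) (rep o)) = 4 := by
    intro o
    have h1 := Nat.card_congr
      (MulAction.orbitEquivQuotientStabilizer (Subgroup.normalizer (A : Set G)) (rep o))
    have h2 := (MulAction.stabilizer (Subgroup.normalizer (A : Set G)) (rep o)).card_mul_index
    rw [card_stabilizer_nonOne A h, h.card_normalizer, mul_comm 4] at h2
    rw [← Nat.card_eq_fintype_card, h1]
    exact Nat.eq_of_mul_eq_mul_left (h.card ▸ Nat.card_pos) h2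
  have hinv : ∀ (n : Subgroup.normalizer (A : Set G)) (μ : NonOne A), m (n • μ).1 = m μ.1 := by
    intro n μ
    have key : (m (n • μ).1 : ℂ) = m μ.1 := by
      rw [← hm, ← hm, classInner, classInner]
      congr 1
      refine Fintype.sum_equiv (normConj A n).toEquiv _ _ fun x => ?_
      rw [smul_nonOne_apply]
      congr 1
      show (χ : G → ℂ) x = (χ : G → ℂ) ((n : G)⁻¹ * x * n)
      have := isClassFunction_coe χ (x : G) (n : G)⁻¹
      rw [inv_inv] at this
      exact this.symm
    exact_mod_cast key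
  have hsum : ∀ F : IrrCharacter A → ℤ, (∀ (n : Subgroup.normalizer (A : Set G)) (μ : NonOne A),
      F (n • μ).1 = F μ.1) → ∑ μ : IrrCharacter A, F μ = F (oneChar A) + 4 * ∑ o : Ω, F (rep o).1 := by
    intro F hF
    rw [← Finset.add_sum_erase Finset.univ F (Finset.mem_univ (oneChar A))]
    congr 1
    rw [Finset.sum_subtype (Finset.univ.erase (oneChar A)) (p := fun μ => μ ≠ oneChar A)
      (by simp) F]
    show ∑ μ : NonOne A, F μ.1 = _
    rw [← Equiv.sum_comp (MulAction.selfEquivSigmaOrbits (Subgroup.normalizer (A : Set G)) (NonOne A)).symm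
      (fun μ : NonOne A => F μ.1), Fintype.sum_sigma, Finset.mul_sum]
    refine Finset.sum_congr rfl fun o _ => ?_
    rw [Finset.sum_congr rfl (g := fun _ => F (rep o).1) fun x _ => ?_, Finset.sum_const,
      Finset.card_univ, horb, nsmul_eq_mul, Nat.cast_ofNat]
    obtain ⟨n, hn⟩ := x.2
    show F (x : NonOne A).1 = _
    rw [← hn]
    exact hF n (rep o)
  let c : Ω → ℤ := fun o => (m (rep o).1 : ℤ) - m (oneChar A)
  have e1 : ∑ μ : IrrCharacter A, ((m μ : ℤ) - m (oneChar A)) = 4 * ∑ o : Ω, c o := by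
    rw [hsum _ fun n μ => by rw [hinv], sub_self, zero_add]
  have e2 : ∑ μ : IrrCharacter A, ((m μ : ℤ) - m (oneChar A)) ^ 2 = 4 * ∑ o : Ω, c o ^ 2 := by
    rw [hsum _ fun n μ => by rw [hinv], sub_self, zero_pow two_ne_zero, zero_add]
  have hn : a = 4 * Fintype.card Ω + 1 := by
    have := hsum (fun _ => 1) fun _ _ => rfl
    simp only [Finset.sum_const, Finset.card_univ, hcardI, nsmul_eq_mul, mul_one] at this
    exact_mod_cast this.trans (add_comm _ _)
  refine ⟨Fintype.card Ω, fun i => c ((Fintype.equivFin Ω).symm i), hn, ?_, ?_⟩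
  · rw [Equiv.sum_comp (Fintype.equivFin Ω).symm c, ← e1, Finset.sum_sub_distrib, ← hdegZ,
      Finset.sum_const, Finset.card_univ, hcardI, nsmul_eq_mul, sub_sub_cancel]
    exact dvd_mul_right _ _
  · rw [Equiv.sum_comp (Fintype.equivFin Ω).symm c,
      Equiv.sum_comp (Fintype.equivFin Ω).symm fun o => c o ^ 2]
    have h1 : ‖(χ : G → ℂ) 1‖ ^ 2 = ((∑ μ : IrrCharacter A, (m μ : ℤ) : ℤ) : ℝ) ^ 2 := by
      rw [← hdegZ, ← coe_charDegree]; simp
    rw [offSum_eq, show (∑ g : A, ‖(χ : G → ℂ) g‖ ^ 2) = _ from hnorm, h1]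
    simp only [Finset.sum_sub_distrib, Finset.sum_const, Finset.card_univ, hcardI, nsmul_eq_mul] at e1
    simp only [sub_sq, Finset.sum_add_distrib, Finset.sum_sub_distrib, Finset.sum_const,
      Finset.card_univ, hcardI, nsmul_eq_mul, ← Finset.mul_sum, ← Finset.sum_mul] at e2
    have key : (a : ℤ) * ∑ μ : IrrCharacter A, (m μ : ℤ) ^ 2 - (∑ μ : IrrCharacter A, (m μ : ℤ)) ^ 2 =
        4 * ((a : ℤ) * ∑ o : Ω, c o ^ 2 - 4 * (∑ o : Ω, c o) ^ 2) := by
      linear_combination (a : ℤ) * e2 - ((∑ μ : IrrCharacter A, (m μ : ℤ)) - (a : ℤ) * m (oneChar A)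
        + 4 * ∑ o : Ω, c o) * e1
    exact_mod_cast key

/-- Either the profile is constant or it costs at least `a - 5`. -/
theorem profile_cases {n : ℕ} (c : Fin n → ℤ) (a d : ℤ) (ha : a = 4 * n + 1)
    (hd : a ∣ d - 4 * ∑ i, c i) :
    (∃ k : ℤ, a ∣ d + k ∧ a * ∑ i, c i ^ 2 - 4 * (∑ i, c i) ^ 2 = n * k ^ 2) ∨
      ∃ C : ℤ, a ∣ d - 4 * C ∧ a - 5 + |C| ≤ a * ∑ i, c i ^ 2 - 4 * (∑ i, c i) ^ 2 := by
  classical
  by_cases hconst : ∃ k, ∀ i, c i = k
  · obtain ⟨k, hk⟩ := hconst
    left
    refine ⟨k, ?_, ?_⟩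
    · have h2 := dvd_add hd (dvd_mul_left a k)
      simp only [hk, Finset.sum_const, Finset.card_univ, Fintype.card_fin, nsmul_eq_mul] at h2
      have e : d + k = d - 4 * (↑n * k) + k * a := by rw [ha]; ring
      rw [e]; exact h2
    · simp only [hk, Finset.sum_const, Finset.card_univ, Fintype.card_fin, nsmul_eq_mul, ha]
      ring
  · right
    push Not at hconst
    refine ⟨_, hd, ?_⟩
    obtain ⟨i, -⟩ := hconst 0
    obtain ⟨j, hij⟩ := hconst (c i)
    -- the spread
    let f : Fin n → ℤ := fun k => ∑ l, (c k - c l) ^ 2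
    have hD : ∑ k, f k = 2 * ((n : ℤ) * ∑ l, c l ^ 2 - (∑ l, c l) ^ 2) := by
      simp only [f, sub_sq, Finset.sum_add_distrib, Finset.sum_sub_distrib, Finset.sum_const,
        Finset.card_univ, Fintype.card_fin, nsmul_eq_mul, ← Finset.mul_sum, mul_assoc, ← Finset.sum_mul]
      ring
    have one_le_sq : ∀ x : ℤ, x ≠ 0 → 1 ≤ x ^ 2 := fun x hx => by
      have := sq_pos_of_ne_zero hx; omega
    have hij2 : (n : ℤ) ≤ f i + f j := by
      have h1 : ∑ _l : Fin n, (1 : ℤ) ≤ ∑ l, ((c i - c l) ^ 2 + (c j - c l) ^ 2) := by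
        refine Finset.sum_le_sum fun l _ => ?_
        by_cases hl : c l = c i
        · have := one_le_sq (c j - c l) (by rw [hl]; exact sub_ne_zero.2 hij)
          linarith [sq_nonneg (c i - c l)]
        · have := one_le_sq (c i - c l) (sub_ne_zero.2 (Ne.symm hl))
          linarith [sq_nonneg (c j - c l)]
      simpa [f, Finset.sum_add_distrib] using h1
    have hrest : ∀ k, 1 ≤ f k := by
      intro k
      obtain ⟨l, hl⟩ := hconst (c k)
      exact (one_le_sq _ (sub_ne_zero.2 (Ne.symm hl))).trans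
        (Finset.single_le_sum (f := fun l => (c k - c l) ^ 2) (fun l _ => sq_nonneg _) (Finset.mem_univ l))
    have hij' : i ≠ j := fun e => hij (by rw [e])
    have hall : (n : ℤ) + (n - 2) ≤ ∑ k, f k := by
      have hs : ∑ k ∈ Finset.univ \ {i, j}, (1 : ℤ) ≤ ∑ k ∈ Finset.univ \ {i, j}, f k :=
        Finset.sum_le_sum fun k _ => hrest k
      rw [← Finset.sum_sdiff (Finset.subset_univ ({i, j} : Finset (Fin n))), Finset.sum_pair hij']
      have hc : (((Finset.univ \ {i, j} : Finset (Fin n))).card : ℤ) = n - 2 := by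
        have h1 := Finset.card_sdiff_add_card_eq_card (Finset.subset_univ ({i, j} : Finset (Fin n)))
        rw [Finset.card_pair hij', Finset.card_univ, Fintype.card_fin] at h1
        omega
      simp only [Finset.sum_const, nsmul_eq_mul, mul_one, hc] at hs
      linarith
    have hsq : |∑ l, c l| ≤ ∑ l, c l ^ 2 :=
      (Finset.abs_sum_le_sum_abs _ _).trans (Finset.sum_le_sum fun l _ => by
        rcases le_total (c l) 0 with h | h
        · rw [abs_of_nonpos h]; nlinarith
        · rw [abs_of_nonneg h]; nlinarith)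
    subst ha
    nlinarith

end CfsgLib.SuzukiDeg
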