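import Cfsg.Agent.Suzuki.Chars.Borel
import Cfsg.Agent.Suzuki.Chars.Torus
import Cfsg.Agent.Suzuki.Chars.Arith

/-!
The norm of an irreducible character of the Suzuki group split over the translations and the two
non-split tori.
-/

set_option autoImplicit false

open Cfsg
open scoped ComplexConjugate

namespace CfsgLib.SuzukiDeg

open CfsgLib.Suzuki CfsgLib.Chars

section TI

variable {G : Type*} [Group G] [Fintype G]

open scoped Classical in
/-- The sum of a class function over the conjugates of a TI subgroup. -/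
theorem sum_conjSet (H N : Subgroup G) [Fintype H] (hN : ∀ x, ∀ h ∈ H, h ≠ 1 → (x⁻¹ * h * x ∈ H ↔ x ∈ N))
    (f : G → ℝ) (hf : ∀ g x, f (x * g * x⁻¹) = f g) :
    (Nat.card N : ℝ) * ∑ g ∈ Finset.univ.filter (fun g => g ∈ conjSet H), f g =
      (Nat.card G : ℝ) * ((∑ h : H, f h) - f 1) := by
  set C := Finset.univ.filter (fun g => g ∈ conjSet H)
  set D := (Finset.univ : Finset G) ×ˢ (Finset.univ.filter (fun h : H => h ≠ 1)) with hD
  let μ : G × H → G := fun p => p.1 * p.2 * p.1⁻¹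
  have hmaps : ∀ p ∈ D, μ p ∈ C := by
    intro p hp
    refine Finset.mem_filter.2 ⟨Finset.mem_univ _, fun e => ?_, p.1, ?_⟩
    · exact (Finset.mem_filter.1 (Finset.mem_product.1 hp).2).2 (Subtype.ext (conj_eq_one_iff.1 e))
    · simp [μ, mul_assoc]
  have h1 : ∑ p ∈ D, f (μ p) = (Nat.card G : ℝ) * ((∑ h : H, f h) - f 1) := by
    rw [hD, Finset.sum_product]
    simp only [μ, hf, Finset.sum_const, Finset.card_univ, nsmul_eq_mul, ← Nat.card_eq_fintype_card]
    congr 1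
    rw [Finset.filter_ne', Finset.sum_erase_eq_sub (Finset.mem_univ _), Subgroup.coe_one]
  rw [← h1, ← Finset.sum_fiberwise_of_maps_to hmaps, Finset.mul_sum]
  refine Finset.sum_congr rfl fun g hg => ?_
  obtain ⟨hg1, x₀, hx₀⟩ := (Finset.mem_filter.1 hg).2
  rw [Finset.sum_congr rfl (g := fun _ => f g) fun p hp => by rw [(Finset.mem_filter.1 hp).2],
    Finset.sum_const, nsmul_eq_mul]
  congr 1
  rw [Nat.card_eq_fintype_card, ← Finset.card_univ, Nat.cast_inj]
  have hh0 : x₀⁻¹ * g * x₀ ≠ 1 := fun e => hg1 (by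
    calc g = x₀ * (x₀⁻¹ * g * x₀) * x₀⁻¹ := by group
      _ = 1 := by rw [e]; group)
  refine Finset.card_bij (fun n _ => (x₀ * (n : G),
    ⟨(n : G)⁻¹ * (x₀⁻¹ * g * x₀) * n, (hN n _ hx₀ hh0).2 n.2⟩)) ?_ ?_ ?_
  · intro n _
    refine Finset.mem_filter.2 ⟨Finset.mem_product.2 ⟨Finset.mem_univ _,
      Finset.mem_filter.2 ⟨Finset.mem_univ _, fun e => hh0 ?_⟩⟩, ?_⟩
    · have e' : (n : G)⁻¹ * (x₀⁻¹ * g * x₀) * n = 1 := congrArg Subtype.val e
      calc x₀⁻¹ * g * x₀ = n * ((n : G)⁻¹ * (x₀⁻¹ * g * x₀) * n) * (n : G)⁻¹ := by group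
        _ = 1 := by rw [e']; group
    · simp [μ, mul_assoc]
  · intro n _ n' _ e
    exact Subtype.ext (mul_left_cancel (congrArg Prod.fst e))
  · intro p hp
    have hμ : p.1 * p.2 * p.1⁻¹ = g := (Finset.mem_filter.1 hp).2
    have hp2 : (p.2 : G) = p.1⁻¹ * g * p.1 := by rw [← hμ]; group
    have hn : x₀⁻¹ * p.1 ∈ N := by
      refine (hN _ _ hx₀ hh0).1 ?_
      rw [show (x₀⁻¹ * p.1)⁻¹ * (x₀⁻¹ * g * x₀) * (x₀⁻¹ * p.1) = p.1⁻¹ * g * p.1 by group, ← hp2]
      exact p.2.2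
    refine ⟨⟨_, hn⟩, Finset.mem_univ _, Prod.ext (mul_inv_cancel_left _ _) (Subtype.ext ?_)⟩
    show (x₀⁻¹ * p.1)⁻¹ * (x₀⁻¹ * g * x₀) * (x₀⁻¹ * p.1) = _
    rw [hp2]; group

theorem exists_Y {A : Subgroup G} {a : ℕ} (h : Torus A a) (χ : IrrCharacter G) :
    ∃ Y : ℤ, offSum A (χ : G → ℂ) = 4 * (Y : ℝ) ∧ 0 ≤ Y ∧
      Prof a (charDegree (χ : G → ℂ)) Y := by
  obtain ⟨n, c, hn, hd, hX⟩ := exists_profile h χ
  have ha : (a : ℤ) = 4 * n + 1 := by exact_mod_cast hn
  refine ⟨_, hX, ?_, ?_⟩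
  · have h0 : (0 : ℝ) ≤ 4 * (((a : ℤ) * ∑ i, c i ^ 2 - 4 * (∑ i, c i) ^ 2 : ℤ) : ℝ) :=
      (offSum_nonneg A _).trans_eq hX
    exact_mod_cast nonneg_of_mul_nonneg_right h0 (by norm_num)
  · rcases profile_cases c a _ ha hd with ⟨k, hk, hY⟩ | h2
    · exact Or.inl ⟨k, hk, by rw [hY, ha]; ring⟩
    · exact Or.inr h2

end TI

variable {F : Type*} [Field F] [Fintype F] [CharP F 2] {m : ℕ}

theorem torus_ti {A : Subgroup (grp (theta F m))} {a : ℕ} (hA : Torus A a) :
    ∀ x, ∀ h ∈ A, h ≠ 1 → (x⁻¹ * h * x ∈ A ↔ x ∈ Subgroup.normalizer (A : Set (grp (theta F m)))) := by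
  intro x h hh h1
  constructor
  · intro hx
    rw [← inv_mem_iff]
    exact mem_normalizer_of_ti hA.cent x⁻¹ h hh h1 (by rwa [inv_inv])
  · intro hx
    have h2 := (Subgroup.mem_normalizer_iff.1 (inv_mem hx) h).1 hh
    rwa [inv_inv] at h2

/-- The norm equation, for a character whose sum over the translations vanishes. -/
theorem budget (hm : 1 ≤ m) (hF : Fintype.card F = 2 ^ (2 * m + 1)) [Fintype (grp (theta F m))]
    [Fintype (uGrp (titsEndo_theta hm hF))]
    {P M : Subgroup (grp (theta F m))} {ap am : ℕ} (hP : Torus P ap) (hM : Torus M am)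
    (hprod : ap * am = Fintype.card F ^ 2 + 1) (hcop : Nat.Coprime ap am)
    (hapq : Nat.Coprime (Fintype.card F ^ 2) ap) (hamq : Nat.Coprime (Fintype.card F ^ 2) am)
    (χ : IrrCharacter (grp (theta F m)))
    (hU : ∑ u : uGrp (titsEndo_theta hm hF), (χ : grp (theta F m) → ℂ) u = 0)
    {k Yp Ym : ℤ} (hk : (charDegree (χ : grp (theta F m) → ℂ) : ℤ) = ((Fintype.card F : ℤ) - 1) * k)
    (hYp : offSum P (χ : grp (theta F m) → ℂ) = 4 * (Yp : ℝ))
    (hYm : offSum M (χ : grp (theta F m) → ℂ) = 4 * (Ym : ℝ)) :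
    2 * k ^ 2 + ((Fintype.card F : ℤ) + 1) * (Yp * am + Ym * ap) ≤
      ((Fintype.card F : ℤ) + 1) * ((ap : ℤ) * am) := by
  classical
  set hT := titsEndo_theta hm hF
  set f : grp (theta F m) → ℝ := fun g => ‖(χ : grp (theta F m) → ℂ) g‖ ^ 2 with hf
  have hfc : ∀ g x, f (x * g * x⁻¹) = f g := fun g x => by
    simp only [hf]; rw [isClassFunction_coe χ g x]
  have hq : Nat.card F = Fintype.card F := Nat.card_eq_fintype_card
  have hG : (Nat.card (grp (theta F m)) : ℝ) =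
      (Fintype.card F : ℝ) ^ 2 * ((Fintype.card F : ℝ) ^ 2 + 1) * ((Fintype.card F : ℝ) - 1) := by
    rw [card_grp hT, hq, Nat.cast_mul, Nat.cast_mul, Nat.cast_sub Fintype.card_pos]
    push_cast; ring
  -- the three pieces
  have hnU : ∀ x, ∀ h ∈ uGrp hT, h ≠ 1 → (x⁻¹ * h * x ∈ uGrp hT ↔ x ∈ stabInf (theta F m)) :=
    fun x h hh h1 => ⟨mem_stabInf_of_conj hT hh h1, fun hx => by
      have := conj_mem_uGrp hT (inv_mem hx) hh
      rwa [inv_inv] at this⟩
  have sU := sum_conjSet (uGrp hT) (stabInf (theta F m)) hnU f hfc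
  have sP := sum_conjSet P _ (torus_ti hP) f hfc
  have sM := sum_conjSet M _ (torus_ti hM) f hfc
  rw [card_stabInf hT, hq, hG, Nat.cast_mul, Nat.cast_sub Fintype.card_pos] at sU
  rw [hP.card_normalizer, hG, show ((∑ h : P, f h) - f 1) = 4 * (Yp : ℝ) from
    (offSum_eq P (χ : grp (theta F m) → ℂ)).symm.trans hYp] at sP
  rw [hM.card_normalizer, hG, show ((∑ h : M, f h) - f 1) = 4 * (Ym : ℝ) from
    (offSum_eq M (χ : grp (theta F m) → ℂ)).symm.trans hYm] at sM
  -- total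
  have dUP : Disjoint (conjSet (uGrp hT)) (conjSet P) :=
    conjSet_disjoint (by rw [card_uGrp, hq, hP.card]; exact hapq)
  have dUM : Disjoint (conjSet (uGrp hT)) (conjSet M) :=
    conjSet_disjoint (by rw [card_uGrp, hq, hM.card]; exact hamq)
  have dPM : Disjoint (conjSet P) (conjSet M) := conjSet_disjoint (by rwa [hP.card, hM.card])
  set CU := Finset.univ.filter (fun g => g ∈ conjSet (uGrp hT))
  set CP := Finset.univ.filter (fun g => g ∈ conjSet P)
  set CM := Finset.univ.filter (fun g => g ∈ conjSet M)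
  have e1 : Disjoint CU CP := Finset.disjoint_left.2 fun g a b =>
    Set.disjoint_left.1 dUP (Finset.mem_filter.1 a).2 (Finset.mem_filter.1 b).2
  have e2 : Disjoint (CU ∪ CP) CM := Finset.disjoint_left.2 fun g a b => by
    rcases Finset.mem_union.1 a with a | a
    · exact Set.disjoint_left.1 dUM (Finset.mem_filter.1 a).2 (Finset.mem_filter.1 b).2
    · exact Set.disjoint_left.1 dPM (Finset.mem_filter.1 a).2 (Finset.mem_filter.1 b).2
  have hsub : CU ∪ CP ∪ CM ⊆ Finset.univ.erase 1 := by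
    intro g hg
    refine Finset.mem_erase.2 ⟨?_, Finset.mem_univ _⟩
    rcases Finset.mem_union.1 hg with hg | hg
    · rcases Finset.mem_union.1 hg with hg | hg <;> exact (Finset.mem_filter.1 hg).2.1
    · exact (Finset.mem_filter.1 hg).2.1
  have hle : ∑ g ∈ CU, f g + ∑ g ∈ CP, f g + ∑ g ∈ CM, f g + f 1 ≤ ∑ g, f g := by
    rw [← Finset.sum_union e1, ← Finset.sum_union e2, ← Finset.sum_erase_add Finset.univ f (Finset.mem_univ 1)]
    have := Finset.sum_le_sum_of_subset_of_nonneg (f := f) hsub fun g _ _ => sq_nonneg _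
    linarith
  have htot : ∑ g, f g = (Nat.card (grp (theta F m)) : ℝ) := by
    have h1 := classInner_self χ
    rw [classInner, inv_mul_eq_one₀ (Nat.cast_ne_zero.2 Nat.card_pos.ne')] at h1
    simp only [Complex.mul_conj'] at h1
    exact_mod_cast h1.symm
  rw [htot, hG] at hle
  have hf1 : f 1 = (((Fintype.card F : ℝ) - 1) * (k : ℝ)) ^ 2 := by
    simp only [hf]
    rw [← coe_charDegree, Complex.norm_natCast]
    congr 1
    exact_mod_cast hk
  -- Cauchy-Schwarz on the translations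
  have hCS : f 1 ≤ ((Fintype.card F : ℝ) ^ 2 - 1) * ((∑ h : uGrp hT, f h) - f 1) := by
    set s := Finset.univ.erase (1 : uGrp hT)
    have h1 : ‖(χ : grp (theta F m) → ℂ) 1‖ ≤ ∑ u ∈ s, ‖(χ : grp (theta F m) → ℂ) u‖ := by
      have hU' : ∑ u ∈ s, (χ : grp (theta F m) → ℂ) u + (χ : grp (theta F m) → ℂ) 1 = 0 := by
        have h0 := Finset.sum_erase_add Finset.univ
          (fun u : uGrp hT => (χ : grp (theta F m) → ℂ) u) (Finset.mem_univ 1)
        simp only [Subgroup.coe_one] at h0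
        rw [h0]
        convert hU
      rw [show (χ : grp (theta F m) → ℂ) 1 = -∑ u ∈ s, (χ : grp (theta F m) → ℂ) u from
        eq_neg_of_add_eq_zero_right hU', norm_neg]
      exact norm_sum_le _ _
    have h2 : (∑ u ∈ s, ‖(χ : grp (theta F m) → ℂ) u‖) ^ 2 ≤ (s.card : ℝ) * ∑ u ∈ s, f u :=
      sq_sum_le_card_mul_sum_sq
    have h3 : ∑ u ∈ s, f u = (∑ h : uGrp hT, f h) - f 1 := by
      rw [Finset.sum_erase_eq_sub (Finset.mem_univ _), Subgroup.coe_one]
    have h4 : (s.card : ℝ) = (Fintype.card F : ℝ) ^ 2 - 1 := by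
      rw [Finset.card_erase_of_mem (Finset.mem_univ _), Finset.card_univ, ← Nat.card_eq_fintype_card,
        card_uGrp, hq, Nat.cast_sub (Nat.one_le_pow _ _ Fintype.card_pos)]
      push_cast; rfl
    rw [h3, h4] at h2
    exact (pow_le_pow_left₀ (norm_nonneg _) h1 2).trans h2
  -- solve
  have hap0 : (ap : ℝ) ≠ 0 := by rw [← hP.card]; exact Nat.cast_ne_zero.2 Nat.card_pos.ne'
  have ham0 : (am : ℝ) ≠ 0 := by rw [← hM.card]; exact Nat.cast_ne_zero.2 Nat.card_pos.ne'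
  have hprodR : (ap : ℝ) * am = (Fintype.card F : ℝ) ^ 2 + 1 := by exact_mod_cast hprod
  have hq2 : (2 : ℝ) ≤ (Fintype.card F : ℝ) := by exact_mod_cast Fintype.one_lt_card (α := F)
  set q := (Fintype.card F : ℝ) with hqdef
  push_cast at sU sP sM
  have tU : ∑ g ∈ CU, f g = (q ^ 2 + 1) * ((∑ h : uGrp hT, f h) - f 1) := by
    refine mul_left_cancel₀ (show q ^ 2 * (q - 1) ≠ 0 by
      have : 0 < q - 1 := by linarith
      positivity) ?_
    rw [sU]; ring
  have tP : ∑ g ∈ CP, f g = q ^ 2 * (q - 1) * am * Yp := by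
    refine mul_left_cancel₀ (show (4 : ℝ) * ap ≠ 0 by positivity) ?_
    rw [sP, ← hprodR]; ring
  have tM : ∑ g ∈ CM, f g = q ^ 2 * (q - 1) * ap * Ym := by
    refine mul_left_cancel₀ (show (4 : ℝ) * am ≠ 0 by positivity) ?_
    rw [sM, ← hprodR]; ring
  rw [tU, tP, tM, hf1] at hle
  rw [hf1] at hCS
  have h1 : (q ^ 2 - 1) * ((q ^ 2 + 1) * ((∑ h : uGrp hT, f h) - ((q - 1) * k) ^ 2) +
      q ^ 2 * (q - 1) * am * Yp + q ^ 2 * (q - 1) * ap * Ym + ((q - 1) * k) ^ 2) ≤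
      (q ^ 2 - 1) * (q ^ 2 * (q ^ 2 + 1) * (q - 1)) :=
    mul_le_mul_of_nonneg_left hle (by nlinarith)
  have h2 := mul_le_mul_of_nonneg_left hCS (by positivity : (0 : ℝ) ≤ q ^ 2 + 1)
  have h3 : q ^ 2 * (q - 1) ^ 2 * (2 * (k : ℝ) ^ 2 + (q + 1) * ((Yp : ℝ) * am + (Ym : ℝ) * ap)) ≤
      q ^ 2 * (q - 1) ^ 2 * ((q + 1) * ((ap : ℝ) * am)) := by
    rw [hprodR]; nlinarith
  have h4 := le_of_mul_le_mul_left h3 (by
    have : 0 < q - 1 := by linarith
    positivity)
  rw [hqdef] at h4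
  exact_mod_cast h4

/-- The column relation on a torus. -/
theorem sum_offSum {G : Type*} [Group G] [Fintype G] {A : Subgroup G} {a : ℕ} (hA : Torus A a) :
    ∑ χ : IrrCharacter G, offSum A (χ : G → ℂ) = ((a : ℝ) - 1) * a := by
  classical
  simp only [offSum_eq, Finset.sum_sub_distrib]
  rw [Finset.sum_comm]
  simp only [sum_irr_norm_sq]
  rw [← Finset.sum_erase_add _ _ (Finset.mem_univ (1 : A)), Subgroup.coe_one, add_sub_cancel_right,
    Finset.sum_congr rfl (g := fun _ => (a : ℝ)) fun u hu => by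
      rw [hA.cent u u.2 fun e => (Finset.mem_erase.1 hu).1 (Subtype.ext e), hA.card],
    Finset.sum_const, nsmul_eq_mul, Finset.card_erase_of_mem (Finset.mem_univ _), Finset.card_univ,
    ← Nat.card_eq_fintype_card, hA.card, Nat.cast_sub (hA.card ▸ Nat.card_pos)]
  simp

end CfsgLib.SuzukiDeg
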